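import Cfsg.Agent.H938.EPK.F4Val

/-!
# The value of the formula for the two functionals, II (S5745, CrossK; helper938)
-/

set_option autoImplicit false
set_option linter.unusedSectionVars false

namespace Cfsg.Agent.H938.EPK.F4W

open CoxeterSystem Cfsg Cfsg.Lie Cfsg.Lie.ChevalleyDatum
open Cfsg.Agent.ChevalleyStructure Cfsg.Agent.ChevalleyStructure.Elts Cfsg.Agent.ChevalleyStructure.CoxeterGeom
  Cfsg.Agent.ChevalleyStructure.CoxeterGeomTypes Cfsg.Agent.ChevalleyStructure.NPerm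
open Cfsg.Agent.Tits.Roots Cfsg.Agent.Tits.Core Cfsg.Agent.Nodes Cfsg.Agent.Nodes.Reps Cfsg.Agent.Nodes.BNOf
  Cfsg.Agent.Nodes.RGDChev
open Cfsg.Agent.BpExc Cfsg.Agent.H129.TorusChar Cfsg.Agent.H130.WeylCk Cfsg.Agent.H130.WeylTab
  Cfsg.Agent.H972.CS Cfsg.Agent.H972.CS.Main Cfsg.Agent.H972.CS.Torus Cfsg.Agent.H129.TorusMain

/-- the determinant of order four -/
def dt (M : Fin 4 → Fin 4 → ℤ) : ℤ :=
  M 0 0 * (M 1 1 * (M 2 2 * M 3 3 - M 2 3 * M 3 2) - M 1 2 * (M 2 1 * M 3 3 - M 2 3 * M 3 1) +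
      M 1 3 * (M 2 1 * M 3 2 - M 2 2 * M 3 1)) -
    M 0 1 * (M 1 0 * (M 2 2 * M 3 3 - M 2 3 * M 3 2) - M 1 2 * (M 2 0 * M 3 3 - M 2 3 * M 3 0) +
      M 1 3 * (M 2 0 * M 3 2 - M 2 2 * M 3 0)) +
    M 0 2 * (M 1 0 * (M 2 1 * M 3 3 - M 2 3 * M 3 1) - M 1 1 * (M 2 0 * M 3 3 - M 2 3 * M 3 0) +
      M 1 3 * (M 2 0 * M 3 1 - M 2 1 * M 3 0)) -
    M 0 3 * (M 1 0 * (M 2 1 * M 3 2 - M 2 2 * M 3 1) - M 1 1 * (M 2 0 * M 3 2 - M 2 2 * M 3 0) +
      M 1 2 * (M 2 0 * M 3 1 - M 2 1 * M 3 0))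

theorem det_eq (M : Matrix (Fin 4) (Fin 4) ℤ) : M.det = dt M := by
  rw [Matrix.det_succ_row_zero]
  simp only [Fin.sum_univ_succ, Matrix.det_fin_three, Matrix.submatrix_apply, dt]
  simp [Fin.succAbove, Fin.lt_def]
  ring

/-- the matrix of `w - q` -/
def mw (L : List (Fin 4)) (q : ℕ) (i j : Fin 4) : ℤ := toFn 4 (im L j) i - if i = j then (q : ℤ) else 0

theorem det_gq (L : List (Fin 4)) (q : ℕ) :
    LinearMap.det (gq (theta hF c4 (c4.wordProd L) (AddEquiv.refl _)) q) = dt (mw L q) := by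
  rw [← LinearMap.det_toMatrix', det_eq]
  congr 1
  funext i j
  rw [LinearMap.toMatrix'_apply]
  have h3 : gq (theta hF c4 (c4.wordProd L) (AddEquiv.refl _)) q (sr j) i = mw L q i j := by
    rw [gq_apply]
    change (rp (c4.wordProd L) (sr j) - (q : ℤ) • (sr j : Fin 4 → ℤ)) i = _
    rw [rp_word, Pi.sub_apply, Pi.smul_apply, smul_eq_mul]
    unfold mw
    congr 1
    by_cases hij : i = j
    · subst hij; rw [if_pos rfl, sr_self, mul_one]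
    · rw [if_neg hij, sr_ne hij, mul_zero]
  exact h3

theorem det_le {m q : ℕ} {a b : Fin 4} (h : Is m a b) (hq : q = 2 ∨ q = 4) :
    ∀ i, (dt (mw (us a b i ++ w0 m q) q)).natAbs ≤ (q ^ 2 + q + 1) ^ 2 := by
  rcases h with ⟨rfl, rfl, rfl⟩ | ⟨rfl, rfl, rfl⟩ <;> rcases hq with rfl | rfl <;> decide +kernel

/-- the positive roots killed by the functional -/
def ps (a b : Fin 4) : List (List ℤ) := [bas 4 a, bas 4 b, (bas 4 a).zipWith (· + ·) (bas 4 b)]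

theorem psi_tab {m : ℕ} {a b : Fin 4} (h : Is m a b) : ∀ r < 48, (∀ j : Fin 4, 0 ≤ vec chevF4 4 r j) →
    (∑ j : Fin 4, vec chevF4 4 r j * (dg m j : ℤ)) % 7 = 0 → ∃ l ∈ ps a b, ∀ j : Fin 4, vec chevF4 4 r j = toFn 4 l j := by
  rcases h with ⟨rfl, rfl, rfl⟩ | ⟨rfl, rfl, rfl⟩ <;> decide +kernel

theorem mem_psi {m : ℕ} {a b : Fin 4} (h : Is m a b) {x : Fin 4 → ℤ} (hx : x ∈ psi c4 hF.isCartan (fn m)) :
    ∃ l ∈ ps a b, x = toFn 4 l := by
  obtain ⟨h1, h2, h3⟩ := hx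
  obtain ⟨r, hr, rfl⟩ := (isRoot_iff hF c4 x).1 h1
  suffices h5 : ∃ l ∈ ps a b, ∀ j : Fin 4, vec chevF4 4 r j = toFn 4 l j by
    obtain ⟨l, hl, h6⟩ := h5
    exact ⟨l, hl, funext h6⟩
  refine psi_tab h r hr h2 ?_
  rw [fn_apply] at h3
  have h4 : ((∑ j : Fin 4, vec chevF4 4 r j * (dg m j : ℤ) : ℤ) : ZMod 7) = 0 := by
    rw [Int.cast_sum, ← h3]
    exact Finset.sum_congr rfl fun j _ => by rw [Int.cast_mul, Int.cast_natCast]
  exact Int.emod_eq_zero_of_dvd ((ZMod.intCast_zmod_eq_zero_iff_dvd _ 7).1 h4)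

theorem ncard_le_of {S : Set (Fin 4 → ℤ)} {t : List (List ℤ)} (h : ∀ x ∈ S, ∃ l ∈ t, x = toFn 4 l) :
    S.ncard ≤ t.length := by
  classical
  have h1 : S ⊆ ↑((t.map (toFn 4)).toFinset) := by
    intro x hx
    obtain ⟨l, hl, rfl⟩ := h x hx
    rw [Finset.mem_coe, List.mem_toFinset, List.mem_map]
    exact ⟨l, hl, rfl⟩
  refine (Set.ncard_le_ncard h1 (Finset.finite_toSet _)).trans ?_
  rw [Set.ncard_coe_finset]
  exact (List.toFinset_card_le _).trans (by rw [List.length_map])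

/-- the bounds of the lengths -/
def ln : Fin 6 → ℕ := ![0, 1, 1, 2, 2, 3]

theorem ps_len (a b : Fin 4) : (ps a b).length = 3 := rfl

theorem ps_bas {a b : Fin 4} (hab : (a = 0 ∧ b = 1) ∨ (a = 2 ∧ b = 3)) : ∀ l ∈ ps a b, l.length = 4 := by
  rcases hab with ⟨rfl, rfl⟩ | ⟨rfl, rfl⟩ <;> decide +kernel

theorem len_tab {a b : Fin 4} (hab : (a = 0 ∧ b = 1) ∨ (a = 2 ∧ b = 3)) : ∀ i : Fin 6,
    ((ps a b).filter fun l => decide (∀ j : Fin 4, toFn 4 (ac alF4 (us a b i) l) j ≤ 0)).length ≤ ln i := by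
  rcases hab with ⟨rfl, rfl⟩ | ⟨rfl, rfl⟩ <;> decide +kernel

theorem rp_list (L : List (Fin 4)) {l : List ℤ} (hl : l.length = 4) :
    rp (c4.wordProd L) (toFn 4 l) = toFn 4 (ac alF4 L l) := by
  have h := toFn_acn c4 hF.isCartan lists_F4 L 1 l hl
  rw [pow_one] at h
  exact h.symm

theorem psiN_le {m : ℕ} {a b : Fin 4} (h : Is m a b) (i : Fin 6) :
    (psiN c4 hF.isCartan (fn m) (c4.wordProd (us a b i))).ncard ≤ ln i := by
  refine le_trans (ncard_le_of ?_) (len_tab h.ab i)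
  rintro x ⟨h1, h2, h3, h4⟩
  obtain ⟨l, hl, rfl⟩ := mem_psi h ⟨h1, h2, h3⟩
  refine ⟨l, ?_, rfl⟩
  rw [List.mem_filter]
  refine ⟨hl, decide_eq_true fun j => ?_⟩
  rw [← rp_list _ (ps_bas h.ab l hl)]
  exact h4 j

open Classical in
/-- the set `Cw` -/
noncomputable def Cs (a b : Fin 4) : Finset W4 := Finset.univ.image fun i : Fin 6 => c4.wordProd (us a b i)

theorem cov {m : ℕ} {a b : Fin 4} (h : Is m a b) (g : (Fin 4 → ℤ) ≃+ (Fin 4 → ℤ)) (w : W4) :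
    Cov hF c4 g (fn m) w (Cs a b) := by
  intro v hv _
  obtain ⟨i, hi⟩ := stab h hv
  classical
  unfold Cs
  exact Finset.mem_image.2 ⟨i, Finset.mem_univ _, hi.symm⟩

/-- **The bound.** -/
theorem val_le {m q : ℕ} {a b : Fin 4} (h : Is m a b) (hq : q = 2 ∨ q = 4) {w : W4}
    (hw : Pair hF c4 (AddEquiv.refl _) q 7 (fn m) w) :
    val hF c4 (AddEquiv.refl _) q (fn m) w (Cs a b) ≤
      (q ^ 2 + q + 1) ^ 2 * (q ^ 3 * (1 + 2 * q + 2 * q ^ 2 + q ^ 3)) := by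
  classical
  obtain ⟨i, rfl⟩ := eig h hq (w := w) fun x => hw.mul x
  have hq0 : 0 < q := by rcases hq with rfl | rfl <;> norm_num
  unfold val
  refine Nat.mul_le_mul ?_ (Nat.mul_le_mul ?_ ?_)
  · rw [det_gq]
    exact det_le h hq i
  · refine Nat.pow_le_pow_right hq0 ?_
    have h1 := ncard_le_of (t := ps a b) fun x hx => mem_psi h hx
    rwa [ps_len] at h1
  · unfold Cs
    rw [Finset.sum_image fun i _ j _ hij => us_inj h.ab hij]
    have h1 : ∀ i : Fin 6, q ^ (psiN c4 hF.isCartan (fn m) (c4.wordProd (us a b i))).ncard ≤ q ^ ln i :=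
      fun i => Nat.pow_le_pow_right hq0 (psiN_le h i)
    refine (Finset.sum_le_sum fun i _ => h1 i).trans (le_of_eq ?_)
    simp only [Fin.sum_univ_succ, ln]
    simp
    ring

end Cfsg.Agent.H938.EPK.F4W
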