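import Cfsg.Agent.H938.EPK.F4Num

/-!
# The centralizers of the elements of order `7` of `F₄(2)` and `F₄(4)` (S5745, CrossK; helper938)

`cent7` : `|C(x)| ≤ (q ^ 2 + q + 1) ^ 2 q ^ 3 (1 + q) (1 + q + q ^ 2)`; `cent7_two`, `cent7_four` : the numbers.
-/

set_option autoImplicit false
set_option linter.unusedSectionVars false

namespace Cfsg.Agent.H938.EPK.F4W

open CoxeterSystem Cfsg Cfsg.Lie Cfsg.Lie.ChevalleyDatum
open Cfsg.Agent.ChevalleyStructure Cfsg.Agent.ChevalleyStructure.Elts Cfsg.Agent.ChevalleyStructure.CoxeterGeom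
  Cfsg.Agent.ChevalleyStructure.CoxeterGeomTypes Cfsg.Agent.ChevalleyStructure.NPerm
open Cfsg.Agent.Tits.Roots Cfsg.Agent.Tits.Core Cfsg.Agent.Nodes Cfsg.Agent.Nodes.Reps Cfsg.Agent.Nodes.BNOf
  Cfsg.Agent.Nodes.RGDChev
open Cfsg.Agent.GpExc.Field Cfsg.Agent.BpExc.Tow Cfsg.Agent.BpExc.TowChev Cfsg.Agent.BpExc.Fr
open Cfsg.Agent.BpExc Cfsg.Agent.H129.TorusChar Cfsg.Agent.H130.WeylCk Cfsg.Agent.H130.WeylTab
  Cfsg.Agent.H972.CS Cfsg.Agent.H972.CS.Main Cfsg.Agent.H972.CS.Torus Cfsg.Agent.H129.TorusMain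
  Cfsg.Agent.H129.TorusUntw Cfsg.Agent.H795.Untw Cfsg.Agent.H765.KE

universe u

/-- `|C(x)| ≤ (q ^ 2 + q + 1) ^ 2 q ^ 3 (1 + q) (1 + q + q ^ 2)` for `x` of order `7` in `F₄(q)`, `q = 2, 4` -/
theorem cent7 {F : Type u} [Field F] [Fintype F] (hq : Fintype.card F = 2 ∨ Fintype.card F = 4)
    {x : ↥(chevF4.group F)} (hx : orderOf x = 7) :
    Nat.card (Subgroup.centralizer ({x} : Set ↥(chevF4.group F))) ≤
      (Fintype.card F ^ 2 + Fintype.card F + 1) ^ 2 * (Fintype.card F ^ 3 *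
        (1 + 2 * Fintype.card F + 2 * Fintype.card F ^ 2 + Fintype.card F ^ 3)) := by
  classical
  obtain ⟨r, e, hr, hrF, hrk, he, hqe, hk⟩ := exists_closure (F := F) rfl
  have h7 : Fact (Nat.Prime 7) := ⟨by norm_num⟩
  have hr7 : 7 ≠ r := by
    rintro rfl
    have h1 : 7 ∣ Fintype.card F := hqe ▸ dvd_pow_self 7 he.ne'
    rcases hq with h2 | h2 <;> · rw [h2] at h1; norm_num at h1
  have hset := setup_untw hF hk (algebraMap F (AlgebraicClosure F)) he hqe invC_F4 one_ne_zero (Or.inl rfl) (p := 7)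
    (by norm_num)
  have hW : ¬ 7 ∣ Nat.card W4 := by rw [card_W4]; norm_num
  have hGf : Finite ↥(chevF4.group F) := inferInstance
  have hP : IsPGroup 7 (Subgroup.zpowers x) := IsPGroup.of_card (n := 1) (by rw [Nat.card_zpowers, hx, pow_one])
  obtain ⟨S, hS⟩ := hP.exists_le_sylow
  obtain ⟨z, hz⟩ := toral hF hk hr7 hW (emb hF.inList (algebraMap F (AlgebraicClosure F))) S
  have hxS := hz x (hS (Subgroup.mem_zpowers x))
  obtain ⟨f, hf, hf0, w, hw, hb⟩ := bound_setup hk hset invC_F4 one_ne_zero h7.out hr7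
    (Rf := {f | f = fn 392 ∨ f = fn 8 ∨ f = 0 ∨ ¬ ∃ w : W4, ∀ y, f (rp w y) = Fintype.card F • f y}) (fun f => by
      have h1 : f.comp (rep CoxeterMatrix.F₄.toCoxeterSystem hF.isCartan 1).toAddMonoidHom = f := by
        rw [map_one]; rfl
      by_cases h0 : f = 0
      · exact ⟨1, by rw [h1]; exact Or.inr (Or.inr (Or.inl h0))⟩
      · by_cases h2 : ∃ w : W4, ∀ y, f (rp w y) = Fintype.card F • f y
        · obtain ⟨w, hw⟩ := h2
          obtain ⟨v, hv⟩ := exists_word hq h0 hw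
          exact ⟨v, hv.elim Or.inl fun h => Or.inr (Or.inl h)⟩
        · exact ⟨1, by rw [h1]; exact Or.inr (Or.inr (Or.inr h2))⟩) (by rw [← hx, pow_orderOf_eq_one])
    (by rintro rfl; rw [orderOf_one] at hx; norm_num at hx) rfl hxS
  rw [← hqe] at hw hb
  rcases hf with rfl | rfl | hf | hf
  · exact (hb _ (cov (a := 0) (b := 1) (Or.inl ⟨rfl, rfl, rfl⟩) _ w)).trans
      (val_le (Or.inl ⟨rfl, rfl, rfl⟩) hq hw)
  · exact (hb _ (cov (a := 2) (b := 3) (Or.inr ⟨rfl, rfl, rfl⟩) _ w)).trans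
      (val_le (Or.inr ⟨rfl, rfl, rfl⟩) hq hw)
  · exact absurd hf hf0
  · exact absurd ⟨w, fun y => hw.mul y⟩ hf

/-- `F₄(2)` : `|C(x)| ≤ 8232` -/
theorem cent7_two {F : Type u} [Field F] [Fintype F] (hq : Fintype.card F = 2)
    {x : ↥(chevF4.group F)} (hx : orderOf x = 7) :
    Nat.card (Subgroup.centralizer ({x} : Set ↥(chevF4.group F))) ≤ 8232 := by
  have h := cent7 (Or.inl hq) hx
  rw [hq] at h
  exact h.trans (by norm_num)

/-- `F₄(4)` : `|C(x)| ≤ 2963520` -/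
theorem cent7_four {F : Type u} [Field F] [Fintype F] (hq : Fintype.card F = 4)
    {x : ↥(chevF4.group F)} (hx : orderOf x = 7) :
    Nat.card (Subgroup.centralizer ({x} : Set ↥(chevF4.group F))) ≤ 2963520 := by
  have h := cent7 (Or.inr hq) hx
  rw [hq] at h
  exact h.trans (by norm_num)

end Cfsg.Agent.H938.EPK.F4W
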