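import Cfsg.Agent.H938.EPK.F4W

/-!
# The value of the formula for the two functionals (S5745, CrossK; helper938)

* `stab` : the stabiliser of the code `392` (`8`) in `W(F₄)` consists of the six words in `0, 1` (`2, 3`);
* `val_le` : `val ≤ (q ^ 2 + q + 1) ^ 2 * (q ^ 3 * (1 + 2 q + 2 q ^ 2 + q ^ 3))`, `q = 2, 4`.
-/

set_option autoImplicit false
set_option linter.unusedSectionVars false

namespace Cfsg.Agent.H938.EPK.F4W

open CoxeterSystem Cfsg Cfsg.Lie Cfsg.Lie.ChevalleyDatum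
open Cfsg.Agent.ChevalleyStructure Cfsg.Agent.ChevalleyStructure.Elts Cfsg.Agent.ChevalleyStructure.CoxeterGeom
  Cfsg.Agent.ChevalleyStructure.CoxeterGeomTypes Cfsg.Agent.ChevalleyStructure.NPerm
open Cfsg.Agent.Tits.Roots Cfsg.Agent.Tits.Core Cfsg.Agent.Nodes Cfsg.Agent.Nodes.Reps Cfsg.Agent.Nodes.BNOf
  Cfsg.Agent.Nodes.RGDChev
open Cfsg.Agent.BpExc Cfsg.Agent.H129.TorusChar Cfsg.Agent.H130.WeylCk Cfsg.Agent.H130.WeylTab
  Cfsg.Agent.H972.CS Cfsg.Agent.H972.CS.Main Cfsg.Agent.H972.CS.Torus Cfsg.Agent.H129.TorusMain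

theorem finW4 : Finite W4 := finite_W hF c4

theorem card_W4 : Nat.card W4 = 1152 := Cfsg.Agent.H795.RowsA.card_F4

/-- the stabiliser -/
def St (m : ℕ) : Set W4 := {v | ∀ x, fn m (rp v x) = fn m x}

/-- the stabiliser of `m` has at most `1152 / N` elements if the table has `N` codes conjugate to `m` -/
theorem card_St {m : ℕ} {t : List (ℕ × List (Fin 4))} (ht : ∀ e ∈ t, aw e.2 e.1 = m ∧ e.1 < 2401)
    (hn : (t.map Prod.fst).Nodup) : Nat.card (St m) * t.length ≤ 1152 := by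
  have := finW4
  rw [← card_W4]
  let v : Fin t.length → W4 := fun i => (c4.wordProd (t.get i).2)⁻¹
  have hv : ∀ i x, fn m (rp (v i) x) = fn (t.get i).1 x := by
    intro i x
    have h1 := comp_word (t.get i).2 (t.get i).1 (rp (v i) x)
    rw [(ht _ (t.get_mem i)).1] at h1
    rw [← h1]
    change fn _ (rep c4 hF.isCartan _ (rep c4 hF.isCartan _ x)) = _
    rw [← rep_mul_apply, mul_inv_cancel, map_one, Module.End.one_apply]
  have hinj : Function.Injective (fun p : St m × Fin t.length => p.1.1 * v p.2) := by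
    rintro ⟨⟨s, hs⟩, i⟩ ⟨⟨s', hs'⟩, j⟩ h
    have h : s * v i = s' * v j := h
    have h1 : fn (t.get i).1 = fn (t.get j).1 := by
      have e1 : ∀ (a : W4) (ha : a ∈ St m) (l : Fin t.length) (x : Fin 4 → ℤ),
          fn (t.get l).1 x = fn m (rep c4 hF.isCartan (a * v l) x) := by
        intro a ha l x
        rw [rep_mul_apply]
        exact (hv l x).symm.trans (ha (rp (v l) x)).symm
      exact AddMonoidHom.ext fun x => by rw [e1 s hs i x, e1 s' hs' j x, h]
    have h2 : (t.get i).1 = (t.get j).1 := by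
      rw [← code_fn (ht _ (t.get_mem i)).2, ← code_fn (ht _ (t.get_mem j)).2, h1]
    have h3 : i = j := by
      have h4 := List.nodup_iff_injective_get.1 hn
      have h5 := @h4 ⟨i.1, by rw [List.length_map]; exact i.2⟩ ⟨j.1, by rw [List.length_map]; exact j.2⟩ (by
        simpa using h2)
      exact Fin.ext (Fin.mk.inj_iff.1 h5)
    subst h3
    have h4 : s = s' := mul_right_cancel h
    subst h4
    rfl
  have h1 := Nat.card_le_card_of_injective _ hinj
  rwa [Nat.card_prod, Nat.card_eq_fintype_card (α := Fin _), Fintype.card_fin] at h1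

theorem nodup_A : (tA.map Prod.fst).Nodup ∧ tA.length = 192 := by decide +kernel

theorem nodup_B : (tB.map Prod.fst).Nodup ∧ tB.length = 192 := by decide +kernel

/-- the words of the stabiliser -/
def us (a b : Fin 4) : Fin 6 → List (Fin 4) := ![[], [a], [b], [a, b], [b, a], [a, b, a]]

/-- the image of a simple root -/
def im (L : List (Fin 4)) (j : Fin 4) : List ℤ := ac alF4 L (bas 4 j)

theorem rp_word (L : List (Fin 4)) (j : Fin 4) : rp (c4.wordProd L) (sr j) = toFn 4 (im L j) := by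
  have h := Cfsg.Agent.H720.RowsNeg.rep_word lists_F4 c4 hF.isCartan L 1 j
  rw [pow_one] at h
  exact h

theorem us_inj {a b : Fin 4} (hab : (a = 0 ∧ b = 1) ∨ (a = 2 ∧ b = 3)) :
    Function.Injective fun i : Fin 6 => c4.wordProd (us a b i) := by
  have key : ∀ i j : Fin 6, c4.wordProd (us a b i) = c4.wordProd (us a b j) →
      ∀ s, toFn 4 (im (us a b i) s) = toFn 4 (im (us a b j) s) := by
    intro i j h s
    rw [← rp_word, ← rp_word, h]
  intro i j h
  have h1 := key i j h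
  clear h key
  rcases hab with ⟨rfl, rfl⟩ | ⟨rfl, rfl⟩ <;> revert i j <;> decide +kernel

/-- the stabiliser consists of six words -/
theorem St_eq {m : ℕ} {a b : Fin 4} (hab : (a = 0 ∧ b = 1) ∨ (a = 2 ∧ b = 3)) (h6 : Nat.card (St m) ≤ 6)
    (hm : ∀ i, aw (us a b i) m = m) {v : W4} (hv : v ∈ St m) : ∃ i, v = c4.wordProd (us a b i) := by
  have := finW4
  let g : Fin 6 → St m := fun i => ⟨c4.wordProd (us a b i), fun x => by rw [comp_word, hm]⟩
  have hg : Function.Injective g := fun i j h => us_inj hab (congrArg Subtype.val h)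
  have h1 : Function.Bijective g := by
    refine (Nat.bijective_iff_injective_and_card g).2 ⟨hg, ?_⟩
    refine le_antisymm (Nat.card_le_card_of_injective g hg) ?_
    rwa [Nat.card_eq_fintype_card (α := Fin 6), Fintype.card_fin]
  obtain ⟨i, hi⟩ := h1.2 ⟨v, hv⟩
  exact ⟨i, (congrArg Subtype.val hi).symm⟩

/-- the two functionals -/
def Is (m : ℕ) (a b : Fin 4) : Prop := (m = 392 ∧ a = 0 ∧ b = 1) ∨ (m = 8 ∧ a = 2 ∧ b = 3)

theorem Is.ab {m : ℕ} {a b : Fin 4} (h : Is m a b) : (a = 0 ∧ b = 1) ∨ (a = 2 ∧ b = 3) := by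
  rcases h with ⟨-, h⟩ | ⟨-, h⟩
  · exact Or.inl h
  · exact Or.inr h

theorem Is.card {m : ℕ} {a b : Fin 4} (h : Is m a b) : Nat.card (St m) ≤ 6 := by
  rcases h with ⟨rfl, -⟩ | ⟨rfl, -⟩
  · have h1 := card_St tA_aw nodup_A.1
    rw [nodup_A.2] at h1
    omega
  · have h1 := card_St tB_aw nodup_B.1
    rw [nodup_B.2] at h1
    omega

theorem Is.fix {m : ℕ} {a b : Fin 4} (h : Is m a b) : ∀ i, aw (us a b i) m = m := by
  rcases h with ⟨rfl, rfl, rfl⟩ | ⟨rfl, rfl, rfl⟩ <;> decide +kernel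

theorem stab {m : ℕ} {a b : Fin 4} (h : Is m a b) {v : W4} (hv : ∀ x, fn m (rp v x) = fn m x) :
    ∃ i, v = c4.wordProd (us a b i) := St_eq h.ab h.card h.fix hv

/-- the eigenelement -/
def w0 (m q : ℕ) : List (Fin 4) :=
  if m = 392 then (if q = 2 then [2, 1, 2, 0, 1, 2, 3, 2, 1, 2, 0, 1, 2, 3] else [3, 2, 1, 2, 0, 1, 2, 3, 2, 1, 2, 0, 1, 2])
  else (if q = 2 then [1, 2, 3, 1, 2, 0, 1, 2, 3, 0, 1, 2, 1, 0] else [0, 1, 2, 3, 1, 2, 0, 1, 2, 3, 0, 1, 2, 1])

theorem w0_aw {m q : ℕ} {a b : Fin 4} (h : Is m a b) (hq : q = 2 ∨ q = 4) : aw (w0 m q) m = mq q m := by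
  rcases h with ⟨rfl, rfl, rfl⟩ | ⟨rfl, rfl, rfl⟩ <;> rcases hq with rfl | rfl <;> decide +kernel

/-- the elements `w` with `f ∘ w = q f` -/
theorem eig {m q : ℕ} {a b : Fin 4} (h : Is m a b) (hq : q = 2 ∨ q = 4) {w : W4}
    (hw : ∀ x, fn m (rp w x) = q • fn m x) : ∃ i, w = c4.wordProd (us a b i ++ w0 m q) := by
  have h0 : ∀ x, fn m (rp (c4.wordProd (w0 m q)) x) = q • fn m x := fun x => by
    rw [comp_word, w0_aw h hq, fn_mq]
  obtain ⟨i, hi⟩ := stab h (v := w * (c4.wordProd (w0 m q))⁻¹) fun x => by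
    change fn m (rep c4 hF.isCartan _ x) = _
    rw [rep_mul_apply]
    have h1 := hw (rep c4 hF.isCartan (c4.wordProd (w0 m q))⁻¹ x)
    have h2 := h0 (rep c4 hF.isCartan (c4.wordProd (w0 m q))⁻¹ x)
    rw [← h2] at h1
    refine h1.trans ?_
    change fn m (rep c4 hF.isCartan _ (rep c4 hF.isCartan _ x)) = _
    rw [← rep_mul_apply, mul_inv_cancel, map_one, Module.End.one_apply]
  refine ⟨i, ?_⟩
  rw [CoxeterSystem.wordProd_append, ← hi, inv_mul_cancel_right]

end Cfsg.Agent.H938.EPK.F4W
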