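import Cfsg.Agent.H972.CS.Main
import Cfsg.Agent.H765.KE.Ord
import Cfsg.Agent.H720.RowsNeg

/-!
# Functionals modulo `7` on the root lattice of type `F₄` (S5745, CrossK; helper938)

The functional `f : ℤ^4 →+ ZMod 7` has the code `n = ∑ f (sr j) 7 ^ j < 2401`.

* `comp_word` : `f ∘ w` on codes;
* `exists_word` : the functionals `f ≠ 0` with `f ∘ w = q f` (`q = 2, 4`) are conjugate to the code `392` (`[0, 0, 1, 1]`) or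
  `8` (`[1, 1, 0, 0]`).
-/

set_option autoImplicit false
set_option linter.unusedSectionVars false

namespace Cfsg.Agent.H938.EPK.F4W

open CoxeterSystem Cfsg Cfsg.Lie Cfsg.Lie.ChevalleyDatum
open Cfsg.Agent.ChevalleyStructure Cfsg.Agent.ChevalleyStructure.Elts Cfsg.Agent.ChevalleyStructure.CoxeterGeom
  Cfsg.Agent.ChevalleyStructure.CoxeterGeomTypes Cfsg.Agent.ChevalleyStructure.NPerm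
open Cfsg.Agent.Tits.Roots Cfsg.Agent.Tits.Core Cfsg.Agent.Nodes Cfsg.Agent.Nodes.Reps Cfsg.Agent.Nodes.BNOf
  Cfsg.Agent.Nodes.RGDChev
open Cfsg.Agent.BpExc Cfsg.Agent.H129.TorusChar Cfsg.Agent.H130.WeylCk Cfsg.Agent.H130.WeylTab

abbrev W4 := CoxeterMatrix.F₄.Group

noncomputable abbrev c4 : CoxeterSystem CoxeterMatrix.F₄ W4 := CoxeterMatrix.F₄.toCoxeterSystem

theorem hF : IsType chevF4 4 CoxeterMatrix.F₄ := by simp [IsType, typeList]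

/-- the digits -/
def dg (n j : ℕ) : ℕ := n / 7 ^ j % 7

/-- the code with given digits -/
def mk4 (a b c d : ℕ) : ℕ := a + b * 7 + c * 49 + d * 343

theorem dg_lt (n j : ℕ) : dg n j < 7 := Nat.mod_lt _ (by norm_num)

theorem dg_mk4 {a b c d : ℕ} (ha : a < 7) (hb : b < 7) (hc : c < 7) (hd : d < 7) :
    dg (mk4 a b c d) 0 = a ∧ dg (mk4 a b c d) 1 = b ∧ dg (mk4 a b c d) 2 = c ∧ dg (mk4 a b c d) 3 = d := by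
  unfold dg mk4
  refine ⟨?_, ?_, ?_, ?_⟩ <;> norm_num <;> omega

theorem mk4_dg {n : ℕ} (hn : n < 2401) : mk4 (dg n 0) (dg n 1) (dg n 2) (dg n 3) = n := by
  unfold dg mk4
  norm_num
  omega

theorem mk4_lt {a b c d : ℕ} (ha : a < 7) (hb : b < 7) (hc : c < 7) (hd : d < 7) : mk4 a b c d < 2401 := by
  unfold mk4; omega

/-- minus the Cartan matrix modulo `7` -/
def mt : List (List ℕ) := [[5, 1, 0, 0], [1, 5, 2, 0], [0, 1, 5, 1], [0, 0, 1, 5]]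

def mm (i j : ℕ) : ℕ := (mt.getD i []).getD j 0

/-- the reflection on codes -/
def rs (i n : ℕ) : ℕ :=
  mk4 ((dg n 0 + mm i 0 * dg n i) % 7) ((dg n 1 + mm i 1 * dg n i) % 7) ((dg n 2 + mm i 2 * dg n i) % 7)
    ((dg n 3 + mm i 3 * dg n i) % 7)

theorem rs_lt (i n : ℕ) : rs i n < 2401 :=
  mk4_lt (Nat.mod_lt _ (by norm_num)) (Nat.mod_lt _ (by norm_num)) (Nat.mod_lt _ (by norm_num))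
    (Nat.mod_lt _ (by norm_num))

theorem dg_rs (n i : ℕ) (j : Fin 4) : dg (rs i n) j = (dg n j + mm i j * dg n i) % 7 := by
  obtain ⟨h0, h1, h2, h3⟩ := dg_mk4 (a := (dg n 0 + mm i 0 * dg n i) % 7) (b := (dg n 1 + mm i 1 * dg n i) % 7)
    (c := (dg n 2 + mm i 2 * dg n i) % 7) (d := (dg n 3 + mm i 3 * dg n i) % 7) (Nat.mod_lt _ (by norm_num))
    (Nat.mod_lt _ (by norm_num)) (Nat.mod_lt _ (by norm_num)) (Nat.mod_lt _ (by norm_num))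
  fin_cases j
  · exact h0
  · exact h1
  · exact h2
  · exact h3

/-- the functional with code `n` -/
def fn (n : ℕ) : (Fin 4 → ℤ) →+ ZMod 7 :=
  AddMonoidHom.mk' (fun x => ∑ j : Fin 4, ((x j : ℤ) : ZMod 7) * ((dg n j : ℕ) : ZMod 7)) fun x y => by
    rw [← Finset.sum_add_distrib]
    exact Finset.sum_congr rfl fun j _ => by rw [Pi.add_apply, Int.cast_add, add_mul]

theorem fn_apply (n : ℕ) (x : Fin 4 → ℤ) :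
    fn n x = ∑ j : Fin 4, ((x j : ℤ) : ZMod 7) * ((dg n j : ℕ) : ZMod 7) := rfl

theorem fn_sr (n : ℕ) (i : Fin 4) : fn n (sr i) = ((dg n i : ℕ) : ZMod 7) := by
  rw [fn_apply, Finset.sum_eq_single i]
  · rw [sr_self, Int.cast_one, one_mul]
  · intro j _ hj
    rw [sr_ne hj, Int.cast_zero, zero_mul]
  · intro h
    exact absurd (Finset.mem_univ i) h

theorem hom_ext {f g : (Fin 4 → ℤ) →+ ZMod 7} (h : ∀ i, f (sr i) = g (sr i)) : f = g := by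
  refine AddMonoidHom.ext fun x => ?_
  rw [IsMC.eq_sum_sr x, map_sum, map_sum]
  refine Finset.sum_congr rfl fun i _ => ?_
  rw [map_zsmul, map_zsmul, h i]

/-- the code of a functional -/
def code (f : (Fin 4 → ℤ) →+ ZMod 7) : ℕ := mk4 (f (sr 0)).val (f (sr 1)).val (f (sr 2)).val (f (sr 3)).val

theorem code_lt (f : (Fin 4 → ℤ) →+ ZMod 7) : code f < 2401 :=
  mk4_lt (ZMod.val_lt _) (ZMod.val_lt _) (ZMod.val_lt _) (ZMod.val_lt _)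

theorem dg_code (f : (Fin 4 → ℤ) →+ ZMod 7) (j : Fin 4) : dg (code f) j = (f (sr j)).val := by
  obtain ⟨h0, h1, h2, h3⟩ := dg_mk4 (ZMod.val_lt (f (sr 0))) (ZMod.val_lt (f (sr 1))) (ZMod.val_lt (f (sr 2)))
    (ZMod.val_lt (f (sr 3)))
  fin_cases j
  · exact h0
  · exact h1
  · exact h2
  · exact h3

theorem fn_code (f : (Fin 4 → ℤ) →+ ZMod 7) : fn (code f) = f := by
  refine hom_ext fun i => ?_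
  rw [fn_sr, dg_code, ZMod.natCast_zmod_val]

theorem code_fn {n : ℕ} (hn : n < 2401) : code (fn n) = n := by
  have h : ∀ j : Fin 4, (fn n (sr j)).val = dg n j := fun j => by
    rw [fn_sr, ZMod.val_natCast, Nat.mod_eq_of_lt (dg_lt n j)]
  unfold code
  rw [h 0, h 1, h 2, h 3]
  exact mk4_dg hn

theorem cast_A : ∀ i j : Fin 4, ((cartanOf chevF4 4 i j : ℤ) : ZMod 7) + ((mm i j : ℕ) : ZMod 7) = 0 := by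
  decide +kernel

/-- the representation -/
noncomputable abbrev rp (v : W4) := rep c4 hF.isCartan v

theorem comp_simple (n : ℕ) (i : Fin 4) (x : Fin 4 → ℤ) : fn n (rp (c4.simple i) x) = fn (rs i n) x := by
  refine DFunLike.congr_fun (hom_ext (f := (fn n).comp (rp (c4.simple i)).toAddMonoidHom) (g := fn (rs i n)) fun j => ?_) x
  change fn n (rep c4 hF.isCartan (c4.simple i) (sr j)) = _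
  rw [rep_simple_eq, map_sub, map_zsmul, fn_sr, fn_sr, fn_sr, dg_rs, ZMod.natCast_mod, Nat.cast_add, Nat.cast_mul]
  have h1 : pairing (cartanOf chevF4 4) i (sr j) = cartanOf chevF4 4 i j := by
    unfold pairing
    rw [Finset.sum_eq_single j]
    · rw [sr_self, mul_one]
    · intro k _ hk
      rw [sr_ne hk, mul_zero]
    · intro h
      exact absurd (Finset.mem_univ j) h
  rw [h1]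
  have h2 := cast_A i j
  rw [zsmul_eq_mul]
  linear_combination (-(((dg n i : ℕ) : ZMod 7))) * h2

/-- a word on codes -/
def aw : List (Fin 4) → ℕ → ℕ
  | [], n => n
  | i :: L, n => aw L (rs i n)

theorem aw_lt : ∀ (L : List (Fin 4)) {n : ℕ}, n < 2401 → aw L n < 2401
  | [], _, h => h
  | i :: L, n, _ => aw_lt L (rs_lt i n)

theorem comp_word : ∀ (L : List (Fin 4)) (n : ℕ) (x : Fin 4 → ℤ), fn n (rp (c4.wordProd L) x) = fn (aw L n) x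
  | [], n, x => by
    rw [CoxeterSystem.wordProd_nil]
    change fn n (rep c4 hF.isCartan 1 x) = _
    rw [map_one, Module.End.one_apply]
    rfl
  | i :: L, n, x => by
    rw [CoxeterSystem.wordProd_cons, rep_mul_apply]
    have h := comp_simple n i (rp (c4.wordProd L) x)
    rw [h, comp_word L (rs i n) x]
    rfl

/-- the quadratic form on codes -/
def Qn (n : ℕ) : ℕ := (2 * (dg n 0 * dg n 0) + 6 * (dg n 0 * dg n 1) + 4 * (dg n 0 * dg n 2) + 2 * (dg n 0 * dg n 3) +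
  6 * (dg n 1 * dg n 1) + dg n 1 * dg n 2 + 4 * (dg n 1 * dg n 3) + 3 * (dg n 2 * dg n 2) +
  3 * (dg n 2 * dg n 3) + dg n 3 * dg n 3) % 7

theorem Qn_rs : ∀ n < 2401, ∀ i < 4, Qn (rs i n) = Qn n := by decide +kernel

theorem Qn_aw : ∀ (L : List (Fin 4)) {n : ℕ}, n < 2401 → Qn (aw L n) = Qn n
  | [], _, _ => rfl
  | i :: L, n, h => (Qn_aw L (rs_lt i n)).trans (Qn_rs n h i i.2)

/-- multiplication by `q` on codes -/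
def mq (q n : ℕ) : ℕ := mk4 (q * dg n 0 % 7) (q * dg n 1 % 7) (q * dg n 2 % 7) (q * dg n 3 % 7)

theorem Qn_mq : ∀ n < 2401, (Qn (mq 2 n) = 4 * Qn n % 7) ∧ (Qn (mq 4 n) = 2 * Qn n % 7) := by decide +kernel

theorem fn_mq (q n : ℕ) (x : Fin 4 → ℤ) : fn (mq q n) x = q • fn n x := by
  have h : fn (mq q n) = (AddMonoidHom.mulLeft ((q : ℕ) : ZMod 7)).comp (fn n) := by
    refine hom_ext fun j => ?_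
    change _ = ((q : ℕ) : ZMod 7) * fn n (sr j)
    rw [fn_sr, fn_sr]
    have h1 : dg (mq q n) j = q * dg n j % 7 := by
      obtain ⟨h0, h1, h2, h3⟩ := dg_mk4 (a := q * dg n 0 % 7) (b := q * dg n 1 % 7) (c := q * dg n 2 % 7)
        (d := q * dg n 3 % 7) (Nat.mod_lt _ (by norm_num)) (Nat.mod_lt _ (by norm_num)) (Nat.mod_lt _ (by norm_num))
        (Nat.mod_lt _ (by norm_num))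
      fin_cases j
      · exact h0
      · exact h1
      · exact h2
      · exact h3
    rw [h1, ZMod.natCast_mod, Nat.cast_mul]
  rw [h]
  change ((q : ℕ) : ZMod 7) * fn n x = _
  rw [nsmul_eq_mul]

theorem mq_lt (q n : ℕ) : mq q n < 2401 :=
  mk4_lt (Nat.mod_lt _ (by norm_num)) (Nat.mod_lt _ (by norm_num)) (Nat.mod_lt _ (by norm_num))
    (Nat.mod_lt _ (by norm_num))

/-- the eigenfunctionals are isotropic -/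
theorem Qn_eq_zero {q : ℕ} (hq : q = 2 ∨ q = 4) {f : (Fin 4 → ℤ) →+ ZMod 7} {w : W4}
    (h : ∀ y, f (rp w y) = q • f y) : Qn (code f) = 0 := by
  obtain ⟨L, rfl⟩ := c4.wordProd_surjective w
  have h1 : fn (aw L (code f)) = fn (mq q (code f)) := by
    refine AddMonoidHom.ext fun x => ?_
    rw [← comp_word, fn_mq, fn_code, h]
  have h2 := congrArg code h1
  rw [code_fn (aw_lt L (code_lt f)), code_fn (mq_lt _ _)] at h2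
  have h3 := Qn_aw L (code_lt f)
  rw [h2] at h3
  have h4 := Qn_mq _ (code_lt f)
  have h5 : Qn (code f) < 7 := Nat.mod_lt _ (by norm_num)
  rcases hq with rfl | rfl
  · rw [h4.1] at h3; omega
  · rw [h4.2] at h3; omega

/-- the orbit of the code `392` -/
def tA : List (ℕ × List (Fin 4)) :=
  [(392, []), (396, [0, 1, 2, 3, 1, 2, 0, 1, 2, 3, 0, 1, 2]), (403, [0, 1, 2, 3, 1, 2]), (423, [1, 2, 3, 1, 2, 0, 1,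
  2, 3, 0, 1, 2]), (427, [1, 2, 0, 1, 2, 3, 2, 1, 2, 0, 1, 2, 3, 1, 2, 0, 1, 2]), (430, [1, 2, 3, 1, 2]), (445, [0, 1,
  2, 3, 1, 2, 0, 1, 2]), (446, [0, 1, 2, 3]), (462, [2, 3, 1, 2, 0, 1, 2, 3, 0, 1, 2]), (470, [1, 2, 0, 1, 2, 3, 2, 1,
  2, 0, 1, 2, 3, 1, 2]), (472, [1, 2, 3, 1, 2, 0, 1, 2]), (478, [1, 2, 3]), (482, [1, 2, 0, 1, 2, 3, 2, 1, 2, 0, 1, 2,
  3, 0, 1, 2]), (499, [2, 1, 2, 3, 2, 1, 2, 0, 1, 2, 3, 1, 2]), (511, [2, 3, 1, 2, 0, 1, 2]), (516, [2, 0, 1, 2, 3, 2,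
  1, 2, 0, 1, 2, 3, 1, 2]), (518, [1, 2, 0, 1, 2, 3, 2, 1, 2, 0, 1, 2, 3]), (520, [1, 2, 3, 0, 1, 2]), (537, [0, 1, 2,
  3, 0, 1, 2]), (541, [2, 1, 2, 3, 2, 1, 2, 0, 1, 2, 3, 1, 2, 0, 1, 2]), (542, [2, 1, 2, 3, 2, 1, 2, 0, 1, 2, 3]),
  (554, [2, 3, 1, 2]), (558, [2, 0, 1, 2, 3, 2, 1, 2, 0, 1, 2, 3, 1, 2, 0, 1, 2]), (564, [2, 0, 1, 2, 3, 2, 1, 2, 0,
  1, 2, 3]), (566, [2, 3, 0, 1, 2]), (567, [1, 2, 0, 1, 2, 3, 2, 1, 2]), (588, [2, 1, 2, 0, 1, 2, 3, 2, 1, 2, 0, 1, 2,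
  3, 2, 1, 2, 0, 1, 2]), (591, [2, 1, 2, 3, 2, 1, 2]), (602, [2, 3]), (606, [2, 0, 1, 2, 3, 2, 1, 2, 0, 1, 2, 3, 0, 1,
  2]), (613, [2, 0, 1, 2, 3, 2, 1, 2]), (633, [2, 1, 2, 3, 2, 1, 2, 0, 1, 2, 3, 0, 1, 2]), (739, [0, 1, 2, 3, 1, 2, 0,
  1, 2, 3]), (741, [0, 1, 2]), (742, [3, 2, 1, 2, 0, 1, 2, 3, 2, 1, 2]), (765, [1, 2, 3, 1, 2, 0, 1, 2, 3, 1, 2, 0, 1,
  2]), (766, [1, 2, 3, 1, 2, 0, 1, 2, 3]), (778, [1, 2]), (782, [0, 1, 2, 3, 1, 2, 0, 1, 2, 3, 1, 2, 0, 1, 2]), (784,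
  [3, 2, 1, 2, 0, 1, 2, 3, 2, 1, 2, 0, 1, 2]), (785, [3, 2, 1, 2, 0, 1, 2, 3, 2]), (797, [3, 2, 1, 2, 0, 1, 2, 3, 1,
  2]), (799, [2, 3, 1, 2, 0, 1, 2, 3, 2, 0, 1, 2]), (805, [2, 3, 1, 2, 0, 1, 2, 3]), (811, [2, 3, 1, 2, 0, 1, 2, 3, 1,
  2, 0, 1, 2]), (833, [3, 2, 1, 2, 0, 1, 2, 3]), (839, [3, 2, 1, 2, 0, 1, 2, 3, 1, 2, 0, 1, 2]), (861, [1, 2, 0, 1, 2,
  3, 2, 1, 2, 0, 1, 2]), (862, [1, 2, 0, 1, 2, 3, 2]), (874, [1, 2, 0, 1, 2, 3, 1, 2]), (876, [3, 2, 1, 2, 0, 1, 2, 3,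
  2, 0, 1, 2]), (883, [2, 1, 2, 0, 1, 2, 3, 2, 1, 2, 0, 1, 2, 3, 2, 1, 2]), (885, [2, 1, 2, 3, 2, 1, 2, 0, 1, 2]),
  (891, [2, 1, 2, 3, 2]), (895, [2, 1, 2, 0, 1, 2, 3, 2, 1, 2, 0, 1, 2, 3, 2, 0, 1, 2]), (907, [2, 0, 1, 2, 3, 2, 1,
  2, 0, 1, 2]), (908, [2, 0, 1, 2, 3, 2]), (924, [3, 2, 1, 2, 0, 1, 2, 3, 0, 1, 2]), (987, [2]), (991, [0, 1, 2, 3, 1,
  2, 0, 1, 2, 3, 2, 0, 1, 2]), (998, [2, 0, 1, 2, 3, 1, 2]), (1018, [1, 2, 3, 1, 2, 0, 1, 2, 3, 2, 0, 1, 2]), (1022,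
  [2, 1, 2, 0, 1, 2, 3, 2, 1, 2, 0, 1, 2, 3, 1, 2, 0, 1, 2]), (1025, [2, 1, 2, 3, 1, 2]), (1078, [3, 2, 1, 2, 0, 1, 2,
  3, 2, 1, 2, 0, 1, 2, 3]), (1080, [3, 2, 1, 2, 3, 0, 1, 2]), (1097, [3, 2, 0, 1, 2, 3, 0, 1, 2]), (1108, [1, 2, 3, 1,
  2, 0, 1, 2, 3, 1, 2]), (1120, [1, 2, 0, 1, 2]), (1125, [0, 1, 2, 3, 1, 2, 0, 1, 2, 3, 1, 2]), (1141, [2, 3, 1, 2, 0,
  1, 2, 3, 2, 1, 2, 0, 1, 2]), (1142, [2, 3, 1, 2, 0, 1, 2, 3, 2]), (1154, [2, 3, 1, 2, 0, 1, 2, 3, 1, 2]), (1156, [1,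
  2, 0, 1, 2, 3, 2, 0, 1, 2]), (1162, [1, 2, 0, 1, 2, 3]), (1168, [1, 2, 0, 1, 2, 3, 1, 2, 0, 1, 2]), (1176, [3, 2, 1,
  2, 0, 1, 2]), (1181, [0, 1, 2, 3, 2, 1, 2, 0, 1, 2, 3, 2, 1, 2]), (1183, [2, 1, 2, 0, 1, 2, 3, 2, 1, 2, 0, 1, 2, 3,
  2]), (1185, [2, 1, 2, 3, 2, 0, 1, 2]), (1202, [2, 0, 1, 2, 3, 2, 0, 1, 2]), (1213, [1, 2, 3, 2, 1, 2, 0, 1, 2, 3, 2,
  1, 2]), (1276, [2, 1, 2, 3]), (1280, [2, 1, 2, 0, 1, 2, 3, 2, 1, 2, 0, 1, 2, 3, 0, 1, 2]), (1292, [2, 0, 1, 2, 3, 1,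
  2, 0, 1, 2]), (1293, [2, 0, 1, 2, 3]), (1309, [3, 1, 2, 0, 1, 2, 3, 0, 1, 2]), (1317, [2, 1, 2, 0, 1, 2, 3, 2, 1, 2,
  0, 1, 2, 3, 1, 2]), (1319, [2, 1, 2, 3, 1, 2, 0, 1, 2]), (1324, [2, 1, 2]), (1328, [0, 1, 2, 3, 1, 2, 0, 1, 2, 3, 2,
  1, 2, 0, 1, 2]), (1334, [0, 1, 2, 3, 1, 2, 0, 1, 2, 3, 2]), (1336, [2, 0, 1, 2]), (1337, [2, 3, 2, 1, 2, 0, 1, 2, 3,
  2, 1, 2]), (1360, [1, 2, 3, 1, 2, 0, 1, 2, 3, 2, 1, 2, 0, 1, 2]), (1361, [1, 2, 3, 1, 2, 0, 1, 2, 3, 2]), (1423, [3,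
  2, 1, 2, 3]), (1427, [3, 2, 1, 2, 0, 1, 2, 3, 2, 1, 2, 0, 1, 2, 3, 0, 1, 2]), (1439, [3, 2, 0, 1, 2, 3, 1, 2, 0, 1,
  2]), (1440, [3, 2, 0, 1, 2, 3]), (1456, [1, 2, 0, 1, 2, 3, 0, 1, 2]), (1464, [3, 2, 1, 2, 0, 1, 2, 3, 2, 1, 2, 0, 1,
  2, 3, 1, 2]), (1466, [3, 2, 1, 2, 3, 1, 2, 0, 1, 2]), (1471, [3, 2, 1, 2]), (1475, [0, 1, 2, 3, 2, 1, 2, 0, 1, 2, 3,
  2, 1, 2, 0, 1, 2]), (1481, [0, 1, 2, 3, 2, 1, 2, 0, 1, 2, 3, 2]), (1483, [3, 2, 0, 1, 2]), (1484, [2, 3, 1, 2, 0, 1,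
  2, 3, 2, 1, 2]), (1507, [1, 2, 3, 2, 1, 2, 0, 1, 2, 3, 2, 1, 2, 0, 1, 2]), (1508, [1, 2, 3, 2, 1, 2, 0, 1, 2, 3,
  2]), (1568, [2, 1, 2, 0, 1, 2, 3, 2, 1, 2, 0, 1, 2, 3]), (1570, [2, 1, 2, 3, 0, 1, 2]), (1587, [2, 0, 1, 2, 3, 0, 1,
  2]), (1598, [1, 2, 3, 2, 1, 2, 0, 1, 2, 3, 1, 2]), (1610, [3, 1, 2, 0, 1, 2]), (1615, [0, 1, 2, 3, 2, 1, 2, 0, 1, 2,
  3, 1, 2]), (1631, [2, 3, 2, 1, 2, 0, 1, 2, 3, 2, 1, 2, 0, 1, 2]), (1632, [2, 3, 2, 1, 2, 0, 1, 2, 3, 2]), (1644, [2,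
  3, 2, 1, 2, 0, 1, 2, 3, 1, 2]), (1646, [3, 1, 2, 0, 1, 2, 3, 2, 0, 1, 2]), (1652, [3, 1, 2, 0, 1, 2, 3]), (1658, [3,
  1, 2, 0, 1, 2, 3, 1, 2, 0, 1, 2]), (1666, [2, 1, 2, 0, 1, 2]), (1671, [0, 1, 2, 3, 1, 2, 0, 1, 2, 3, 2, 1, 2]),
  (1673, [3, 2, 1, 2, 0, 1, 2, 3, 2, 1, 2, 0, 1, 2, 3, 2]), (1675, [3, 2, 1, 2, 3, 2, 0, 1, 2]), (1692, [3, 2, 0, 1,
  2, 3, 2, 0, 1, 2]), (1703, [1, 2, 3, 1, 2, 0, 1, 2, 3, 2, 1, 2]), (1771, [3, 2]), (1775, [0, 1, 2, 3, 2, 1, 2, 0, 1,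
  2, 3, 2, 0, 1, 2]), (1782, [3, 2, 0, 1, 2, 3, 1, 2]), (1802, [1, 2, 3, 2, 1, 2, 0, 1, 2, 3, 2, 0, 1, 2]), (1806, [3,
  2, 1, 2, 0, 1, 2, 3, 2, 1, 2, 0, 1, 2, 3, 1, 2, 0, 1, 2]), (1809, [3, 2, 1, 2, 3, 1, 2]), (1866, [0, 1, 2, 3, 2, 1,
  2, 0, 1, 2, 3]), (1868, [3, 0, 1, 2]), (1869, [2, 1, 2, 0, 1, 2, 3, 2, 1, 2]), (1892, [1, 2, 3, 2, 1, 2, 0, 1, 2, 3,
  1, 2, 0, 1, 2]), (1893, [1, 2, 3, 2, 1, 2, 0, 1, 2, 3]), (1905, [3, 1, 2]), (1909, [0, 1, 2, 3, 2, 1, 2, 0, 1, 2, 3,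
  1, 2, 0, 1, 2]), (1911, [2, 1, 2, 0, 1, 2, 3, 2, 1, 2, 0, 1, 2]), (1912, [2, 1, 2, 0, 1, 2, 3, 2]), (1924, [2, 1, 2,
  0, 1, 2, 3, 1, 2]), (1926, [2, 3, 2, 1, 2, 0, 1, 2, 3, 2, 0, 1, 2]), (1932, [2, 3, 2, 1, 2, 0, 1, 2, 3]), (1938, [2,
  3, 2, 1, 2, 0, 1, 2, 3, 1, 2, 0, 1, 2]), (1960, [2, 1, 2, 0, 1, 2, 3]), (1966, [2, 1, 2, 0, 1, 2, 3, 1, 2, 0, 1,
  2]), (1988, [3, 1, 2, 0, 1, 2, 3, 2, 1, 2, 0, 1, 2]), (1989, [3, 1, 2, 0, 1, 2, 3, 2]), (2001, [3, 1, 2, 0, 1, 2, 3,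
  1, 2]), (2003, [2, 1, 2, 0, 1, 2, 3, 2, 0, 1, 2]), (2010, [3, 2, 1, 2, 0, 1, 2, 3, 2, 1, 2, 0, 1, 2, 3, 2, 1, 2]),
  (2012, [3, 2, 1, 2, 3, 2, 1, 2, 0, 1, 2]), (2018, [3, 2, 1, 2, 3, 2]), (2022, [3, 2, 1, 2, 0, 1, 2, 3, 2, 1, 2, 0,
  1, 2, 3, 2, 0, 1, 2]), (2034, [3, 2, 0, 1, 2, 3, 2, 1, 2, 0, 1, 2]), (2035, [3, 2, 0, 1, 2, 3, 2]), (2051, [2, 1, 2,
  0, 1, 2, 3, 0, 1, 2]), (2156, [3]), (2160, [0, 1, 2, 3, 2, 1, 2, 0, 1, 2, 3, 0, 1, 2]), (2167, [0, 1, 2, 3, 2, 1,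
  2]), (2187, [1, 2, 3, 2, 1, 2, 0, 1, 2, 3, 0, 1, 2]), (2191, [1, 2, 0, 1, 2, 3, 2, 1, 2, 0, 1, 2, 3, 2, 1, 2, 0, 1,
  2]), (2194, [1, 2, 3, 2, 1, 2]), (2209, [0, 1, 2, 3, 2, 1, 2, 0, 1, 2]), (2210, [0, 1, 2, 3, 2]), (2226, [2, 3, 2,
  1, 2, 0, 1, 2, 3, 0, 1, 2]), (2234, [1, 2, 0, 1, 2, 3, 2, 1, 2, 0, 1, 2, 3, 2, 1, 2]), (2236, [1, 2, 3, 2, 1, 2, 0,
  1, 2]), (2242, [1, 2, 3, 2]), (2246, [1, 2, 0, 1, 2, 3, 2, 1, 2, 0, 1, 2, 3, 2, 0, 1, 2]), (2263, [2, 1, 2, 3, 2, 1,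
  2, 0, 1, 2, 3, 2, 1, 2]), (2275, [2, 3, 2, 1, 2, 0, 1, 2]), (2280, [2, 0, 1, 2, 3, 2, 1, 2, 0, 1, 2, 3, 2, 1, 2]),
  (2282, [1, 2, 0, 1, 2, 3, 2, 1, 2, 0, 1, 2, 3, 2]), (2284, [1, 2, 3, 2, 0, 1, 2]), (2301, [0, 1, 2, 3, 2, 0, 1, 2]),
  (2305, [2, 1, 2, 3, 2, 1, 2, 0, 1, 2, 3, 2, 1, 2, 0, 1, 2]), (2306, [2, 1, 2, 3, 2, 1, 2, 0, 1, 2, 3, 2]), (2318,
  [2, 3, 2, 1, 2]), (2322, [2, 0, 1, 2, 3, 2, 1, 2, 0, 1, 2, 3, 2, 1, 2, 0, 1, 2]), (2328, [2, 0, 1, 2, 3, 2, 1, 2, 0,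
  1, 2, 3, 2]), (2330, [2, 3, 2, 0, 1, 2]), (2331, [3, 1, 2, 0, 1, 2, 3, 2, 1, 2]), (2352, [3, 2, 1, 2, 0, 1, 2, 3, 2,
  1, 2, 0, 1, 2, 3, 2, 1, 2, 0, 1, 2]), (2355, [3, 2, 1, 2, 3, 2, 1, 2]), (2366, [2, 3, 2]), (2370, [2, 0, 1, 2, 3, 2,
  1, 2, 0, 1, 2, 3, 2, 0, 1, 2]), (2377, [3, 2, 0, 1, 2, 3, 2, 1, 2]), (2397, [2, 1, 2, 3, 2, 1, 2, 0, 1, 2, 3, 2, 0,
  1, 2])]

/-- the orbit of the code `8` -/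
def tB : List (ℕ × List (Fin 4)) :=
  [(8, []), (10, [0, 1, 2, 3, 1, 2, 0, 1, 2, 3, 0, 1, 2, 1, 0]), (16, [0, 1, 2, 3, 1, 2, 0, 1, 2, 3, 0, 1, 2, 1]),
  (20, [0]), (23, [0, 1, 2, 3, 1, 2, 1, 0]), (24, [0, 1, 2, 3, 1, 2, 1]), (32, [1, 2, 3, 1, 2, 0, 1, 2, 3, 0, 1, 2, 1,
  0]), (33, [1, 2, 3, 1, 2, 0, 1, 2, 3, 0, 1, 2, 1]), (36, [1, 2, 0, 1, 2, 3, 2, 1, 2, 0, 1, 2, 3, 1, 2, 0, 1, 2, 0,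
  1]), (40, [1, 2, 3, 1, 2, 1, 0]), (46, [1, 2, 3, 1, 2, 1]), (48, [1, 2, 0, 1, 2, 3, 2, 1, 2, 0, 1, 2, 3, 1, 2, 0, 1,
  2, 0, 1, 0]), (71, [2, 3, 1, 2, 0, 1, 2, 3, 0, 1, 2, 1, 0]), (72, [2, 3, 1, 2, 0, 1, 2, 3, 0, 1, 2, 1]), (78, [2, 3,
  1, 2, 0, 1, 2, 0, 1]), (83, [2, 3, 1, 2, 0, 1, 2, 3, 0, 1, 2, 0, 1, 0]), (89, [2, 3, 1, 2, 0, 1, 2, 3, 0, 1, 2, 0,
  1]), (90, [2, 3, 1, 2, 0, 1, 2, 0, 1, 0]), (107, [0, 1, 2, 3, 1, 2, 0, 1, 2, 0, 1]), (110, [0, 1]), (122, [1, 2, 3,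
  1, 2, 0, 1, 2, 3, 0, 1, 2, 0, 1, 0]), (124, [1, 2, 3, 1, 2, 0, 1, 2, 0, 1]), (142, [1]), (144, [0, 1, 2, 3, 1, 2, 0,
  1, 2, 3, 0, 1, 2, 0, 1, 0]), (155, [2, 1, 2, 3, 2, 1, 2, 0, 1, 2, 3, 1, 2, 0, 1, 2, 0, 1]), (158, [2, 1, 2, 3, 2, 1,
  2, 0, 1]), (164, [2, 3, 1, 2, 1, 0]), (167, [2, 0, 1, 2, 3, 2, 1, 2, 0, 1, 2, 3, 1, 2, 0, 1, 2, 0, 1]), (185, [2, 0,
  1, 2, 3, 2, 1, 2, 0, 1]), (186, [2, 3, 0, 1, 2, 1, 0]), (213, [1, 2, 3, 1, 2, 0, 1, 2, 3, 0, 1, 2, 0, 1]), (214, [1,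
  2, 3, 1, 2, 0, 1, 2, 0, 1, 0]), (232, [1, 0]), (235, [0, 1, 2, 3, 1, 2, 0, 1, 2, 3, 0, 1, 2, 0, 1]), (241, [0, 1, 2,
  3, 1, 2, 0, 1, 2, 0, 1, 0]), (244, [0, 1, 0]), (255, [2, 3, 1, 2, 1]), (257, [2, 0, 1, 2, 3, 2, 1, 2, 0, 1, 2, 3, 1,
  2, 0, 1, 2, 0, 1, 0]), (275, [2, 0, 1, 2, 3, 2, 1, 2, 0, 1, 0]), (277, [2, 3, 0, 1, 2, 1]), (289, [2, 1, 2, 3, 2, 1,
  2, 0, 1, 2, 3, 1, 2, 0, 1, 2, 0, 1, 0]), (292, [2, 1, 2, 3, 2, 1, 2, 0, 1, 0]), (309, [1, 2, 0, 1, 2, 3, 2, 1, 2, 0,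
  1]), (310, [1, 2, 3, 0, 1, 2, 1, 0]), (316, [1, 2, 3, 0, 1, 2, 1]), (321, [1, 2, 0, 1, 2, 3, 2, 1, 2, 0, 1, 0]),
  (327, [0, 1, 2, 3, 0, 1, 2, 1, 0]), (328, [0, 1, 2, 3, 0, 1, 2, 1]), (351, [3, 2, 1, 2, 0, 1, 2, 3, 2, 1, 2, 0, 1]),
  (352, [3, 2, 1, 2, 3, 0, 1, 2, 1, 0]), (358, [3, 2, 1, 2, 3, 0, 1, 2, 1]), (363, [3, 2, 1, 2, 0, 1, 2, 3, 2, 1, 2,
  0, 1, 0]), (369, [3, 2, 0, 1, 2, 3, 0, 1, 2, 1, 0]), (370, [3, 2, 0, 1, 2, 3, 0, 1, 2, 1]), (449, [3, 2, 1, 2, 0,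
  1]), (453, [3, 2, 1, 2, 0, 1, 2, 3, 1, 2, 0, 1, 2, 0, 1]), (459, [3, 2, 0, 1, 2, 3, 0, 1, 2, 0, 1, 0]), (461, [3, 2,
  0, 1, 2, 0, 1]), (485, [3, 2, 1, 2, 0, 1, 2, 3, 2, 0, 1, 2, 0, 1]), (486, [3, 2, 1, 2, 3, 0, 1, 2, 0, 1, 0]), (550,
  [3, 2, 0, 1, 2, 3, 0, 1, 2, 0, 1]), (551, [3, 2, 0, 1, 2, 0, 1, 0]), (575, [3, 2, 1, 2, 0, 1, 2, 3, 2, 0, 1, 2, 0,
  1, 0]), (577, [3, 2, 1, 2, 3, 0, 1, 2, 0, 1]), (583, [3, 2, 1, 2, 0, 1, 0]), (587, [3, 2, 1, 2, 0, 1, 2, 3, 1, 2, 0,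
  1, 2, 0, 1, 0]), (666, [3, 1, 2, 0, 1, 2, 3, 0, 1, 2, 1, 0]), (667, [3, 1, 2, 0, 1, 2, 3, 0, 1, 2, 1]), (673, [3, 1,
  2, 0, 1, 2, 0, 1]), (678, [3, 1, 2, 0, 1, 2, 3, 0, 1, 2, 0, 1, 0]), (684, [3, 1, 2, 0, 1, 2, 3, 0, 1, 2, 0, 1]),
  (685, [3, 1, 2, 0, 1, 2, 0, 1, 0]), (702, [0, 1, 2, 3, 1, 2, 0, 1, 0]), (704, [0, 1, 2, 1]), (716, [1, 2, 3, 1, 2,
  0, 1, 2, 3, 1, 2, 0, 1, 2, 0, 1, 0]), (719, [1, 2, 3, 1, 2, 0, 1, 0]), (731, [1, 2, 1]), (733, [0, 1, 2, 3, 1, 2, 0,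
  1, 2, 3, 1, 2, 0, 1, 2, 0, 1, 0]), (750, [2, 3, 1, 2, 0, 1, 2, 3, 2, 0, 1, 2, 0, 1, 0]), (752, [2, 1, 2, 3, 2, 0, 1,
  2, 0, 1]), (758, [2, 3, 1, 2, 0, 1, 0]), (762, [2, 3, 1, 2, 0, 1, 2, 3, 1, 2, 0, 1, 2, 0, 1, 0]), (774, [2, 0, 1, 2,
  3, 2, 0, 1, 2, 0, 1]), (775, [2, 3, 0, 1, 2, 0, 1, 0]), (898, [1, 2, 0, 1, 2, 3, 2, 0, 1, 2, 0, 1]), (899, [1, 2, 3,
  0, 1, 2, 0, 1, 0]), (911, [1, 2, 0, 1]), (915, [1, 2, 0, 1, 2, 3, 1, 2, 0, 1, 2, 0, 1]), (921, [0, 1, 2, 3, 0, 1, 2,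
  0, 1, 0]), (923, [0, 1, 2, 0, 1]), (940, [2, 1]), (942, [0, 1, 2, 3, 1, 2, 0, 1, 2, 3, 2, 0, 1, 2, 0, 1, 0]), (954,
  [2, 0, 1, 2, 3, 1, 2, 0, 1, 2, 0, 1]), (957, [2, 0, 1]), (969, [1, 2, 3, 1, 2, 0, 1, 2, 3, 2, 0, 1, 2, 0, 1, 0]),
  (971, [2, 1, 2, 3, 1, 2, 0, 1, 2, 0, 1]), (1044, [3, 2, 1, 0]), (1047, [0, 1, 2, 3, 2, 1, 2, 0, 1, 2, 3, 2, 0, 1, 2,
  0, 1]), (1053, [3, 2, 0, 1, 2, 3, 1, 2, 0, 1, 2, 0, 1, 0]), (1056, [3, 2, 0, 1, 0]), (1074, [1, 2, 3, 2, 1, 2, 0, 1,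
  2, 3, 2, 0, 1, 2, 0, 1]), (1075, [3, 2, 1, 2, 3, 1, 2, 0, 1, 2, 0, 1, 0]), (1235, [0, 1, 2, 3, 2, 1, 2, 0, 1]),
  (1236, [3, 0, 1, 2, 1, 0]), (1254, [1, 2, 3, 2, 1, 2, 0, 1, 2, 3, 1, 2, 0, 1, 2, 0, 1]), (1257, [1, 2, 3, 2, 1, 2,
  0, 1]), (1263, [3, 1, 2, 1, 0]), (1266, [0, 1, 2, 3, 2, 1, 2, 0, 1, 2, 3, 1, 2, 0, 1, 2, 0, 1]), (1283, [2, 3, 2, 1,
  2, 0, 1, 2, 3, 2, 0, 1, 2, 0, 1]), (1284, [3, 2, 1, 2, 3, 2, 0, 1, 2, 0, 1, 0]), (1296, [2, 3, 2, 1, 2, 0, 1]),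
  (1300, [2, 3, 2, 1, 2, 0, 1, 2, 3, 1, 2, 0, 1, 2, 0, 1]), (1306, [3, 2, 0, 1, 2, 3, 2, 0, 1, 2, 0, 1, 0]), (1308,
  [2, 3, 2, 0, 1, 2, 0, 1]), (1345, [3, 1, 2, 0, 1, 2, 3, 2, 0, 1, 2, 0, 1, 0]), (1347, [1, 2, 3, 2, 0, 1, 2, 0, 1]),
  (1353, [3, 1, 2, 0, 1, 0]), (1357, [3, 1, 2, 0, 1, 2, 3, 1, 2, 0, 1, 2, 0, 1, 0]), (1369, [0, 1, 2, 3, 2, 0, 1, 2,
  0, 1]), (1370, [3, 0, 1, 2, 0, 1, 0]), (1382, [0, 1, 2, 3, 1, 2, 0, 1]), (1383, [0, 1, 2, 1, 0]), (1401, [1, 2, 3,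
  1, 2, 0, 1, 2, 3, 1, 2, 0, 1, 2, 0, 1]), (1404, [1, 2, 3, 1, 2, 0, 1]), (1410, [1, 2, 1, 0]), (1413, [0, 1, 2, 3, 1,
  2, 0, 1, 2, 3, 1, 2, 0, 1, 2, 0, 1]), (1430, [2, 3, 1, 2, 0, 1, 2, 3, 2, 0, 1, 2, 0, 1]), (1431, [2, 1, 2, 3, 2, 0,
  1, 2, 0, 1, 0]), (1443, [2, 3, 1, 2, 0, 1]), (1447, [2, 3, 1, 2, 0, 1, 2, 3, 1, 2, 0, 1, 2, 0, 1]), (1453, [2, 0, 1,
  2, 3, 2, 0, 1, 2, 0, 1, 0]), (1455, [2, 3, 0, 1, 2, 0, 1]), (1492, [1, 2, 0, 1, 2, 3, 2, 0, 1, 2, 0, 1, 0]), (1494,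
  [1, 2, 3, 0, 1, 2, 0, 1]), (1500, [1, 2, 0, 1, 0]), (1504, [1, 2, 0, 1, 2, 3, 1, 2, 0, 1, 2, 0, 1, 0]), (1516, [0,
  1, 2, 3, 0, 1, 2, 0, 1]), (1517, [0, 1, 2, 0, 1, 0]), (1534, [2, 1, 0]), (1537, [0, 1, 2, 3, 1, 2, 0, 1, 2, 3, 2, 0,
  1, 2, 0, 1]), (1543, [2, 0, 1, 2, 3, 1, 2, 0, 1, 2, 0, 1, 0]), (1546, [2, 0, 1, 0]), (1564, [1, 2, 3, 1, 2, 0, 1, 2,
  3, 2, 0, 1, 2, 0, 1]), (1565, [2, 1, 2, 3, 1, 2, 0, 1, 2, 0, 1, 0]), (1724, [3, 2, 1]), (1726, [0, 1, 2, 3, 2, 1, 2,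
  0, 1, 2, 3, 2, 0, 1, 2, 0, 1, 0]), (1738, [3, 2, 0, 1, 2, 3, 1, 2, 0, 1, 2, 0, 1]), (1741, [3, 2, 0, 1]), (1753, [1,
  2, 3, 2, 1, 2, 0, 1, 2, 3, 2, 0, 1, 2, 0, 1, 0]), (1755, [3, 2, 1, 2, 3, 1, 2, 0, 1, 2, 0, 1]), (1829, [0, 1, 2, 3,
  2, 1, 2, 0, 1, 0]), (1831, [3, 0, 1, 2, 1]), (1843, [1, 2, 3, 2, 1, 2, 0, 1, 2, 3, 1, 2, 0, 1, 2, 0, 1, 0]), (1846,
  [1, 2, 3, 2, 1, 2, 0, 1, 0]), (1858, [3, 1, 2, 1]), (1860, [0, 1, 2, 3, 2, 1, 2, 0, 1, 2, 3, 1, 2, 0, 1, 2, 0, 1,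
  0]), (1877, [2, 3, 2, 1, 2, 0, 1, 2, 3, 2, 0, 1, 2, 0, 1, 0]), (1879, [3, 2, 1, 2, 3, 2, 0, 1, 2, 0, 1]), (1885, [2,
  3, 2, 1, 2, 0, 1, 0]), (1889, [2, 3, 2, 1, 2, 0, 1, 2, 3, 1, 2, 0, 1, 2, 0, 1, 0]), (1901, [3, 2, 0, 1, 2, 3, 2, 0,
  1, 2, 0, 1]), (1902, [2, 3, 2, 0, 1, 2, 0, 1, 0]), (2025, [3, 1, 2, 0, 1, 2, 3, 2, 0, 1, 2, 0, 1]), (2026, [1, 2, 3,
  2, 0, 1, 2, 0, 1, 0]), (2038, [3, 1, 2, 0, 1]), (2042, [3, 1, 2, 0, 1, 2, 3, 1, 2, 0, 1, 2, 0, 1]), (2048, [0, 1, 2,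
  3, 2, 0, 1, 2, 0, 1, 0]), (2050, [3, 0, 1, 2, 0, 1]), (2087, [1, 2, 0, 1, 2, 3, 0, 1, 2, 1, 0]), (2088, [1, 2, 0, 1,
  2, 3, 0, 1, 2, 1]), (2094, [1, 2, 0, 1, 2, 0, 1]), (2099, [1, 2, 0, 1, 2, 3, 0, 1, 2, 0, 1, 0]), (2105, [1, 2, 0, 1,
  2, 3, 0, 1, 2, 0, 1]), (2106, [1, 2, 0, 1, 2, 0, 1, 0]), (2115, [2, 1, 2, 0, 1, 2, 3, 2, 1, 2, 0, 1]), (2116, [2, 1,
  2, 3, 0, 1, 2, 1, 0]), (2122, [2, 1, 2, 3, 0, 1, 2, 1]), (2127, [2, 1, 2, 0, 1, 2, 3, 2, 1, 2, 0, 1, 0]), (2133, [2,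
  0, 1, 2, 3, 0, 1, 2, 1, 0]), (2134, [2, 0, 1, 2, 3, 0, 1, 2, 1]), (2213, [2, 1, 2, 0, 1]), (2217, [2, 1, 2, 0, 1, 2,
  3, 1, 2, 0, 1, 2, 0, 1]), (2223, [2, 0, 1, 2, 3, 0, 1, 2, 0, 1, 0]), (2225, [2, 0, 1, 2, 0, 1]), (2249, [2, 1, 2, 0,
  1, 2, 3, 2, 0, 1, 2, 0, 1]), (2250, [2, 1, 2, 3, 0, 1, 2, 0, 1, 0]), (2314, [2, 0, 1, 2, 3, 0, 1, 2, 0, 1]), (2315,
  [2, 0, 1, 2, 0, 1, 0]), (2339, [2, 1, 2, 0, 1, 2, 3, 2, 0, 1, 2, 0, 1, 0]), (2341, [2, 1, 2, 3, 0, 1, 2, 0, 1]),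
  (2347, [2, 1, 2, 0, 1, 0]), (2351, [2, 1, 2, 0, 1, 2, 3, 1, 2, 0, 1, 2, 0, 1, 0])]

theorem tA_aw : ∀ e ∈ tA, aw e.2 e.1 = 392 ∧ e.1 < 2401 := by decide +kernel

theorem tB_aw : ∀ e ∈ tB, aw e.2 e.1 = 8 ∧ e.1 < 2401 := by decide +kernel

theorem cover : ∀ n < 2401, n = 0 ∨ Qn n ≠ 0 ∨ (∃ e ∈ tA, e.1 = n) ∨ ∃ e ∈ tB, e.1 = n := by decide +kernel

/-- **The eigenfunctionals.** -/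
theorem exists_word {q : ℕ} (hq : q = 2 ∨ q = 4) {f : (Fin 4 → ℤ) →+ ZMod 7} (hf : f ≠ 0) {w : W4}
    (h : ∀ y, f (rp w y) = q • f y) :
    ∃ v : W4, f.comp (rp v).toAddMonoidHom = fn 392 ∨ f.comp (rp v).toAddMonoidHom = fn 8 := by
  have h0 : code f ≠ 0 := by
    intro h1
    apply hf
    rw [← fn_code f, h1]
    refine hom_ext fun i => ?_
    rw [fn_sr]
    unfold dg
    simp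
  have key : ∀ e : ℕ × List (Fin 4), e.1 = code f → f.comp (rp (c4.wordProd e.2)).toAddMonoidHom = fn (aw e.2 e.1) := by
    intro e he
    refine AddMonoidHom.ext fun x => ?_
    rw [he, ← comp_word, fn_code]
    rfl
  rcases cover _ (code_lt f) with h1 | h1 | ⟨e, he, h1⟩ | ⟨e, he, h1⟩
  · exact absurd h1 h0
  · exact absurd (Qn_eq_zero hq h) h1
  · exact ⟨c4.wordProd e.2, Or.inl (by rw [key e h1, (tA_aw e he).1])⟩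
  · exact ⟨c4.wordProd e.2, Or.inr (by rw [key e h1, (tB_aw e he).1])⟩

end Cfsg.Agent.H938.EPK.F4W
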