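import Cfsg.Agent.H938.EPK.F4X

/-!
# The centralizers of the elements of order `13` of `F₄(4)` (S5745, CrossK; helper938)

* `stab`, `stabR` : the stabilisers of the five codes; `val_le`, `valR_le` : the values;
* `cent13_four` : `|C(x)| ≤ 2963520` for `x` of order `13` in `F₄(4)`.
-/

set_option autoImplicit false
set_option linter.unusedSectionVars false

namespace Cfsg.Agent.H938.EPK.F4X

open CoxeterSystem Cfsg Cfsg.Lie Cfsg.Lie.ChevalleyDatum
open Cfsg.Agent.ChevalleyStructure Cfsg.Agent.ChevalleyStructure.Elts Cfsg.Agent.ChevalleyStructure.CoxeterGeom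
  Cfsg.Agent.ChevalleyStructure.CoxeterGeomTypes Cfsg.Agent.ChevalleyStructure.NPerm
open Cfsg.Agent.Tits.Roots Cfsg.Agent.Tits.Core Cfsg.Agent.Nodes Cfsg.Agent.Nodes.Reps Cfsg.Agent.Nodes.BNOf
  Cfsg.Agent.Nodes.RGDChev
open Cfsg.Agent.GpExc.Field Cfsg.Agent.BpExc.Tow Cfsg.Agent.BpExc.TowChev Cfsg.Agent.BpExc.Fr
open Cfsg.Agent.BpExc Cfsg.Agent.H129.TorusChar Cfsg.Agent.H130.WeylCk Cfsg.Agent.H130.WeylTab
  Cfsg.Agent.H972.CS Cfsg.Agent.H972.CS.Main Cfsg.Agent.H972.CS.Torus Cfsg.Agent.H129.TorusMain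
  Cfsg.Agent.H129.TorusUntw Cfsg.Agent.H795.Untw Cfsg.Agent.H765.KE
open Cfsg.Agent.H938.EPK.F4W (W4 c4 hF rp finW4 card_W4 us us_inj im rp_word dt mw det_gq ps ps_len ps_bas ncard_le_of
  ln len_tab rp_list Cs)

universe u

/-- the stabiliser -/
def St (m : ℕ) : Set W4 := {v | ∀ x, fn m (rp v x) = fn m x}

/-- the stabiliser of `m` has at most `1152 / N` elements if `N` codes are conjugate to `m` -/
theorem card_St {m : ℕ} {t : List ℕ} (ht : ∀ e ∈ t, red 24 e = m ∧ e < 28561) (hn : t.Nodup) :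
    Nat.card (St m) * t.length ≤ 1152 := by
  have := finW4
  rw [← card_W4]
  choose Lw hLw using fun n => red_word 24 n
  let v : Fin t.length → W4 := fun i => (c4.wordProd (Lw (t.get i)))⁻¹
  have hv : ∀ i x, fn m (rp (v i) x) = fn (t.get i) x := by
    intro i x
    have h1 := comp_word (Lw (t.get i)) (t.get i) (rp (v i) x)
    rw [hLw, (ht _ (t.get_mem i)).1] at h1
    rw [← h1]
    change fn _ (rep c4 hF.isCartan _ (rep c4 hF.isCartan _ x)) = _
    rw [← rep_mul_apply, mul_inv_cancel, map_one, Module.End.one_apply]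
  have hinj : Function.Injective (fun p : St m × Fin t.length => p.1.1 * v p.2) := by
    rintro ⟨⟨s, hs⟩, i⟩ ⟨⟨s', hs'⟩, j⟩ h
    have h : s * v i = s' * v j := h
    have h1 : fn (t.get i) = fn (t.get j) := by
      have e1 : ∀ (a : W4) (ha : a ∈ St m) (l : Fin t.length) (x : Fin 4 → ℤ),
          fn (t.get l) x = fn m (rep c4 hF.isCartan (a * v l) x) := by
        intro a ha l x
        rw [rep_mul_apply]
        exact (hv l x).symm.trans (ha (rp (v l) x)).symm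
      exact AddMonoidHom.ext fun x => by rw [e1 s hs i x, e1 s' hs' j x, h]
    have h2 : t.get i = t.get j := by
      rw [← code_fn (ht _ (t.get_mem i)).2, ← code_fn (ht _ (t.get_mem j)).2, h1]
    have h3 : i = j := List.nodup_iff_injective_get.1 hn h2
    subst h3
    have h4 : s = s' := mul_right_cancel h
    subst h4
    rfl
  have h1 := Nat.card_le_card_of_injective _ hinj
  rwa [Nat.card_prod, Nat.card_eq_fintype_card (α := Fin _), Fintype.card_fin] at h1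

/-- the stabiliser consists of six words -/
theorem St_eq {m : ℕ} {a b : Fin 4} (hab : (a = 0 ∧ b = 1) ∨ (a = 2 ∧ b = 3)) (h6 : Nat.card (St m) ≤ 6)
    (hm : ∀ i, aw (us a b i) m = m) {v : W4} (hv : v ∈ St m) : ∃ i, v = c4.wordProd (us a b i) := by
  have := finW4
  let g : Fin 6 → St m := fun i => ⟨c4.wordProd (us a b i), fun x => by rw [comp_word, hm]⟩
  have hg : Function.Injective g := fun i j h => us_inj hab (congrArg Subtype.val h)
  have h1 : Function.Bijective g := by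
    refine (Nat.bijective_iff_injective_and_card g).2 ⟨hg, ?_⟩
    refine le_antisymm (Nat.card_le_card_of_injective g hg) ?_
    rwa [Nat.card_eq_fintype_card (α := Fin 6), Fintype.card_fin]
  obtain ⟨i, hi⟩ := h1.2 ⟨v, hv⟩
  exact ⟨i, (congrArg Subtype.val hi).symm⟩

/-- the four functionals with stabiliser `S₃` -/
def Is (m : ℕ) (a b : Fin 4) : Prop := ((m = 4563 ∨ m = 9126) ∧ a = 0 ∧ b = 1) ∨ ((m = 15 ∨ m = 30) ∧ a = 2 ∧ b = 3)

theorem Is.ab {m : ℕ} {a b : Fin 4} (h : Is m a b) : (a = 0 ∧ b = 1) ∨ (a = 2 ∧ b = 3) := by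
  rcases h with ⟨-, h⟩ | ⟨-, h⟩
  · exact Or.inl h
  · exact Or.inr h

theorem Is.card {m : ℕ} {a b : Fin 4} (h : Is m a b) : Nat.card (St m) ≤ 6 := by
  rcases h with ⟨rfl | rfl, -⟩ | ⟨rfl | rfl, -⟩
  · have h1 := card_St oA_ck.1 (nodup_inc oA_ck.2.1)
    rw [oA_ck.2.2] at h1
    omega
  · have h1 := card_St oA'_ck.1 (nodup_inc oA'_ck.2.1)
    rw [oA'_ck.2.2] at h1
    omega
  · have h1 := card_St oB_ck.1 (nodup_inc oB_ck.2.1)
    rw [oB_ck.2.2] at h1
    omega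
  · have h1 := card_St oB'_ck.1 (nodup_inc oB'_ck.2.1)
    rw [oB'_ck.2.2] at h1
    omega

theorem Is.fix {m : ℕ} {a b : Fin 4} (h : Is m a b) : ∀ i, aw (us a b i) m = m := by
  rcases h with ⟨rfl | rfl, rfl, rfl⟩ | ⟨rfl | rfl, rfl, rfl⟩ <;> decide +kernel

theorem stab {m : ℕ} {a b : Fin 4} (h : Is m a b) {v : W4} (hv : ∀ x, fn m (rp v x) = fn m x) :
    ∃ i, v = c4.wordProd (us a b i) := St_eq h.ab h.card h.fix hv

theorem le_one_of {a : ℕ} (h : a * 1152 ≤ 1152) : a ≤ 1 := by omega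

/-- the stabiliser of the regular code -/
theorem stabR {v : W4} (hv : ∀ x, fn 2380 (rp v x) = fn 2380 x) : v = 1 := by
  have := finW4
  have h2 : Nat.card (St 2380) ≤ 1 := by
    have h := card_St oR_ck.1 (nodup_inc oR_ck.2.1)
    rw [oR_ck.2.2] at h
    exact le_one_of h
  have h3 : Subsingleton (St 2380) := (Finite.card_le_one_iff_subsingleton).1 h2
  have h4 : (1 : W4) ∈ St 2380 := fun x => by
    change fn 2380 (rep c4 hF.isCartan 1 x) = _
    rw [map_one, Module.End.one_apply]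
  exact congrArg Subtype.val (h3.elim ⟨v, hv⟩ ⟨1, h4⟩)

/-- the eigenelement -/
def w0 (m : ℕ) : List (Fin 4) :=
  if m = 4563 ∨ m = 9126 then [2, 1, 0, 2, 1, 2, 3]
  else if m = 15 ∨ m = 30 then [1, 2, 1, 3, 2, 1, 0] else [0, 1, 0, 2, 3, 2, 1, 2]

theorem w0_aw {m : ℕ} {a b : Fin 4} (h : Is m a b) : aw (w0 m) m = mq 4 m := by
  rcases h with ⟨rfl | rfl, rfl, rfl⟩ | ⟨rfl | rfl, rfl, rfl⟩ <;> decide +kernel

theorem w0_awR : aw (w0 2380) 2380 = mq 4 2380 := by decide +kernel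

/-- the elements `w` with `f ∘ w = 4 f` -/
theorem eig0 {m : ℕ} (h0 : aw (w0 m) m = mq 4 m) {w : W4} (hw : ∀ x, fn m (rp w x) = 4 • fn m x) :
    ∀ x, fn m (rp (w * (c4.wordProd (w0 m))⁻¹) x) = fn m x := by
  have h0 : ∀ x, fn m (rp (c4.wordProd (w0 m)) x) = 4 • fn m x := fun x => by
    rw [comp_word, h0, fn_mq]
  intro x
  change fn m (rep c4 hF.isCartan _ x) = _
  rw [rep_mul_apply]
  have h1 := hw (rep c4 hF.isCartan (c4.wordProd (w0 m))⁻¹ x)
  have h2 := h0 (rep c4 hF.isCartan (c4.wordProd (w0 m))⁻¹ x)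
  rw [← h2] at h1
  refine h1.trans ?_
  change fn m (rep c4 hF.isCartan _ (rep c4 hF.isCartan _ x)) = _
  rw [← rep_mul_apply, mul_inv_cancel, map_one, Module.End.one_apply]

theorem eig {m : ℕ} {a b : Fin 4} (h : Is m a b) {w : W4}
    (hw : ∀ x, fn m (rp w x) = 4 • fn m x) : ∃ i, w = c4.wordProd (us a b i ++ w0 m) := by
  obtain ⟨i, hi⟩ := stab h (eig0 (w0_aw h) hw)
  refine ⟨i, ?_⟩
  rw [CoxeterSystem.wordProd_append, ← hi, inv_mul_cancel_right]

theorem eigR {w : W4} (hw : ∀ x, fn 2380 (rp w x) = 4 • fn 2380 x) : w = c4.wordProd (w0 2380) := by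
  have h := stabR (eig0 w0_awR hw)
  rwa [mul_inv_eq_one] at h

theorem det_le {m : ℕ} {a b : Fin 4} (h : Is m a b) : ∀ i, (dt (mw (us a b i ++ w0 m) 4)).natAbs ≤ 441 := by
  rcases h with ⟨rfl | rfl, rfl, rfl⟩ | ⟨rfl | rfl, rfl, rfl⟩ <;> decide +kernel

theorem detR_le : (dt (mw (w0 2380) 4)).natAbs ≤ 441 := by decide +kernel

theorem psi_tab {m : ℕ} {a b : Fin 4} (h : Is m a b) : ∀ r < 48, (∀ j : Fin 4, 0 ≤ vec chevF4 4 r j) →
    (∑ j : Fin 4, vec chevF4 4 r j * (dg m j : ℤ)) % 13 = 0 → ∃ l ∈ ps a b, ∀ j : Fin 4, vec chevF4 4 r j = toFn 4 l j := by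
  rcases h with ⟨rfl | rfl, rfl, rfl⟩ | ⟨rfl | rfl, rfl, rfl⟩ <;> decide +kernel

theorem psiR_tab : ∀ r < 48, (∑ j : Fin 4, vec chevF4 4 r j * (dg 2380 j : ℤ)) % 13 ≠ 0 := by decide +kernel

theorem fn_vec {m r : ℕ} (h3 : fn m (vec chevF4 4 r) = 0) : (∑ j : Fin 4, vec chevF4 4 r j * (dg m j : ℤ)) % 13 = 0 := by
  rw [fn_apply] at h3
  have h4 : ((∑ j : Fin 4, vec chevF4 4 r j * (dg m j : ℤ) : ℤ) : ZMod 13) = 0 := by
    rw [Int.cast_sum, ← h3]
    exact Finset.sum_congr rfl fun j _ => by rw [Int.cast_mul, Int.cast_natCast]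
  exact Int.emod_eq_zero_of_dvd ((ZMod.intCast_zmod_eq_zero_iff_dvd _ 13).1 h4)

theorem mem_psi {m : ℕ} {a b : Fin 4} (h : Is m a b) {x : Fin 4 → ℤ} (hx : x ∈ psi c4 hF.isCartan (fn m)) :
    ∃ l ∈ ps a b, x = toFn 4 l := by
  obtain ⟨h1, h2, h3⟩ := hx
  obtain ⟨r, hr, rfl⟩ := (isRoot_iff hF c4 x).1 h1
  obtain ⟨l, hl, h6⟩ := psi_tab h r hr h2 (fn_vec h3)
  exact ⟨l, hl, funext h6⟩

theorem psiR {x : Fin 4 → ℤ} : x ∉ psi c4 hF.isCartan (fn 2380) := by
  rintro ⟨h1, h2, h3⟩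
  obtain ⟨r, hr, rfl⟩ := (isRoot_iff hF c4 x).1 h1
  exact psiR_tab r hr (fn_vec h3)

theorem psiN_le {m : ℕ} {a b : Fin 4} (h : Is m a b) (i : Fin 6) :
    (psiN c4 hF.isCartan (fn m) (c4.wordProd (us a b i))).ncard ≤ ln i := by
  refine le_trans (ncard_le_of ?_) (len_tab h.ab i)
  rintro x ⟨h1, h2, h3, h4⟩
  obtain ⟨l, hl, rfl⟩ := mem_psi h ⟨h1, h2, h3⟩
  refine ⟨l, ?_, rfl⟩
  rw [List.mem_filter]
  refine ⟨hl, decide_eq_true fun j => ?_⟩
  rw [← rp_list _ (ps_bas h.ab l hl)]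
  exact h4 j

theorem cov {m : ℕ} {a b : Fin 4} (h : Is m a b) (g : (Fin 4 → ℤ) ≃+ (Fin 4 → ℤ)) (w : W4) :
    Cov hF c4 g (fn m) w (Cs a b) := by
  intro v hv _
  obtain ⟨i, hi⟩ := stab h hv
  classical
  unfold Cs
  exact Finset.mem_image.2 ⟨i, Finset.mem_univ _, hi.symm⟩

theorem covR (g : (Fin 4 → ℤ) ≃+ (Fin 4 → ℤ)) (w : W4) : Cov hF c4 g (fn 2380) w {1} := by
  intro v hv _
  rw [stabR hv]
  exact Finset.mem_singleton_self _

/-- **The bound.** -/
theorem val_le {m : ℕ} {a b : Fin 4} (h : Is m a b) {w : W4}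
    (hw : Pair hF c4 (AddEquiv.refl _) 4 13 (fn m) w) :
    val hF c4 (AddEquiv.refl _) 4 (fn m) w (Cs a b) ≤ 2963520 := by
  classical
  obtain ⟨i, rfl⟩ := eig h (w := w) fun x => hw.mul x
  have h0 : val hF c4 (AddEquiv.refl _) 4 (fn m) (c4.wordProd (us a b i ++ w0 m)) (Cs a b) ≤ 441 * (4 ^ 3 * 105) := by
    unfold val
    refine Nat.mul_le_mul ?_ (Nat.mul_le_mul ?_ ?_)
    · rw [det_gq]
      exact det_le h i
    · refine Nat.pow_le_pow_right (by norm_num) ?_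
      have h1 := ncard_le_of (t := ps a b) fun x hx => mem_psi h hx
      rwa [ps_len] at h1
    · unfold Cs
      rw [Finset.sum_image fun i _ j _ hij => us_inj h.ab hij]
      have h1 : ∀ i : Fin 6, 4 ^ (psiN c4 hF.isCartan (fn m) (c4.wordProd (us a b i))).ncard ≤ 4 ^ ln i :=
        fun i => Nat.pow_le_pow_right (by norm_num) (psiN_le h i)
      refine (Finset.sum_le_sum fun i _ => h1 i).trans (le_of_eq ?_)
      simp only [Fin.sum_univ_succ, ln]
      simp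
  exact h0.trans (by norm_num)

theorem valR_le {w : W4} (hw : Pair hF c4 (AddEquiv.refl _) 4 13 (fn 2380) w) :
    val hF c4 (AddEquiv.refl _) 4 (fn 2380) w {1} ≤ 441 := by
  rw [eigR (w := w) fun x => hw.mul x]
  have h0 : val hF c4 (AddEquiv.refl _) 4 (fn 2380) (c4.wordProd (w0 2380)) {1} ≤ 441 * (1 * 1) := by
    unfold val
    refine Nat.mul_le_mul ?_ (Nat.mul_le_mul ?_ ?_)
    · rw [det_gq]
      exact detR_le
    · have h1 : psi c4 hF.isCartan (fn 2380) = ∅ := Set.eq_empty_of_forall_notMem fun x => psiR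
      rw [h1, Set.ncard_empty, pow_zero]
    · rw [Finset.sum_singleton]
      have h1 : psiN c4 hF.isCartan (fn 2380) 1 = ∅ :=
        Set.eq_empty_of_forall_notMem fun x ⟨h1, h2, h3, _⟩ => psiR ⟨h1, h2, h3⟩
      rw [h1, Set.ncard_empty, pow_zero]
  exact h0

/-- **`|C(x)| ≤ 2963520` for `x` of order `13` in `F₄(4)`.** -/
theorem cent13_four {F : Type u} [Field F] [Fintype F] (hq : Fintype.card F = 4)
    {x : ↥(chevF4.group F)} (hx : orderOf x = 13) :
    Nat.card (Subgroup.centralizer ({x} : Set ↥(chevF4.group F))) ≤ 2963520 := by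
  classical
  obtain ⟨r, e, hr, hrF, hrk, he, hqe, hk⟩ := exists_closure (F := F) rfl
  have h13 : Fact (Nat.Prime 13) := ⟨by norm_num⟩
  have hr13 : 13 ≠ r := by
    rintro rfl
    have h1 : 13 ∣ Fintype.card F := hqe ▸ dvd_pow_self 13 he.ne'
    rw [hq] at h1
    norm_num at h1
  have hset := setup_untw hF hk (algebraMap F (AlgebraicClosure F)) he hqe invC_F4 one_ne_zero (Or.inl rfl) (p := 13)
    (by norm_num)
  have hW : ¬ 13 ∣ Nat.card W4 := by rw [card_W4]; norm_num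
  have hGf : Finite ↥(chevF4.group F) := inferInstance
  have hP : IsPGroup 13 (Subgroup.zpowers x) := IsPGroup.of_card (n := 1) (by rw [Nat.card_zpowers, hx, pow_one])
  obtain ⟨S, hS⟩ := hP.exists_le_sylow
  obtain ⟨z, hz⟩ := toral hF hk hr13 hW (emb hF.inList (algebraMap F (AlgebraicClosure F))) S
  have hxS := hz x (hS (Subgroup.mem_zpowers x))
  obtain ⟨f, hf, hf0, w, hw, hb⟩ := bound_setup hk hset invC_F4 one_ne_zero h13.out hr13
    (Rf := {f | (∃ m, Rp m ∧ f = fn m) ∨ f = 0 ∨ ¬ ∃ w : W4, ∀ y, f (rp w y) = 4 • f y}) (fun f => by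
      have h1 : f.comp (rep CoxeterMatrix.F₄.toCoxeterSystem hF.isCartan 1).toAddMonoidHom = f := by
        rw [map_one]; rfl
      by_cases h0 : f = 0
      · exact ⟨1, by rw [h1]; exact Or.inr (Or.inl h0)⟩
      · by_cases h2 : ∃ w : W4, ∀ y, f (rp w y) = 4 • f y
        · obtain ⟨w, hw⟩ := h2
          obtain ⟨v, m, hm, hv⟩ := exists_word h0 hw
          exact ⟨v, Or.inl ⟨m, hm, hv⟩⟩
        · exact ⟨1, by rw [h1]; exact Or.inr (Or.inr h2)⟩) (by rw [← hx, pow_orderOf_eq_one])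
    (by rintro rfl; rw [orderOf_one] at hx; norm_num at hx) rfl hxS
  rw [← hqe, hq] at hw hb
  rcases hf with ⟨m, hm, rfl⟩ | hf | hf
  · rcases hm with rfl | rfl | rfl | rfl | rfl
    · have hi : Is 4563 0 1 := Or.inl ⟨Or.inl rfl, rfl, rfl⟩
      exact (hb _ (cov hi _ w)).trans (val_le hi hw)
    · have hi : Is 9126 0 1 := Or.inl ⟨Or.inr rfl, rfl, rfl⟩
      exact (hb _ (cov hi _ w)).trans (val_le hi hw)
    · have hi : Is 15 2 3 := Or.inr ⟨Or.inl rfl, rfl, rfl⟩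
      exact (hb _ (cov hi _ w)).trans (val_le hi hw)
    · have hi : Is 30 2 3 := Or.inr ⟨Or.inr rfl, rfl, rfl⟩
      exact (hb _ (cov hi _ w)).trans (val_le hi hw)
    · exact (hb _ (covR _ w)).trans ((valR_le hw).trans (by norm_num))
  · exact absurd hf hf0
  · exact absurd ⟨w, fun y => hw.mul y⟩ hf

end Cfsg.Agent.H938.EPK.F4X
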