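import Mathlib

/-!
# `(Z)`: centralizers in a subgroup `N ≅ T ^ k`, `k ≥ 2` (S5745, CrossK; helper938)

* `exists_cent` : `r ∣ |T|`, `r` prime: some `x` of order `r` in `N` has `r * |T| ^ (k - 1) ∣ |C_G(x)|`;
* `zkill` : if `|C_G(x)| < r * |T|` for all `x` of order `r`, contradiction;
* `exists_comm` : commuting elements of orders `r`, `s` (and one of order `r * s` if `r`, `s` are coprime);
* `exists_inj` : an injective homomorphism `A × B → G` from injective `A → T`, `B → T`.
-/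

set_option autoImplicit false

namespace Cfsg.Agent.H938.EPK

open Subgroup

universe u v

variable {G : Type u} [Group G] {N : Subgroup G} {T : Type v} [Group T] {k : ℕ}

/-- the elements of the last `k - 1` factors commute with the first factor -/
theorem mulSingle_comm {m : ℕ} (s : T) (u : Fin m → T) :
    (Fin.cons s 1 : Fin (m + 1) → T) * Fin.cons 1 u = Fin.cons 1 u * (Fin.cons s 1 : Fin (m + 1) → T) := by
  funext i
  refine Fin.cases ?_ (fun j => ?_) i
  · simp
  · simp

/-- the homomorphism `T × T ^ m → T ^ (m + 1)` -/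
def consHom (T : Type v) [Group T] (m : ℕ) : T × (Fin m → T) →* (Fin (m + 1) → T) where
  toFun p := Fin.cons p.1 p.2
  map_one' := by
    funext i
    refine Fin.cases ?_ (fun j => ?_) i
    · simp
    · simp
  map_mul' a b := by
    funext i
    refine Fin.cases ?_ (fun j => ?_) i
    · simp
    · simp

theorem consHom_inj (m : ℕ) : Function.Injective (consHom T m) := by
  rintro ⟨a, b⟩ ⟨c, d⟩ h
  have h' : (Fin.cons a b : Fin (m + 1) → T) = Fin.cons c d := h
  obtain ⟨h1, h2⟩ := Fin.cons_inj.1 h'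
  rw [h1, h2]

/-- `T × T ^ (k - 1)` in `G` -/
theorem exists_hom (e : N ≃* (Fin k → T)) (hk : 1 ≤ k) :
    ∃ f : T × (Fin (k - 1) → T) →* G, Function.Injective f ∧ ∀ x, f x ∈ N := by
  obtain ⟨m, rfl⟩ : ∃ m, k = m + 1 := ⟨k - 1, by omega⟩
  refine ⟨N.subtype.comp (e.symm.toMonoidHom.comp (consHom T m)), ?_, fun x => (e.symm (consHom T m x)).2⟩
  exact Subtype.val_injective.comp (e.symm.injective.comp (consHom_inj m))

/-- `T × T` in `G` -/
theorem exists_hom2 (e : N ≃* (Fin k → T)) (hk : 2 ≤ k) :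
    ∃ f : T × T →* G, Function.Injective f ∧ ∀ x, f x ∈ N := by
  obtain ⟨m, rfl⟩ : ∃ m, k = m + 2 := ⟨k - 2, by omega⟩
  obtain ⟨f, hf, hfN⟩ := exists_hom e (by omega)
  let g : T →* (Fin (m + 2 - 1) → T) := MonoidHom.mulSingle (fun _ : Fin (m + 1) => T) 0
  have hg : Function.Injective g := Pi.mulSingle_injective (M := fun _ : Fin (m + 1) => T) 0
  refine ⟨f.comp ((MonoidHom.id T).prodMap g), hf.comp (Function.Injective.prodMap Function.injective_id hg),
    fun x => hfN _⟩

variable [Finite G]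

omit [Finite G] in
/-- abstract form: `T × U` in `G` -/
theorem dvd_of_hom {U : Type*} [Group U] {f : T × U →* G} (hf : Function.Injective f) {t : T} :
    orderOf t * Nat.card U ∣ Nat.card (centralizer ({f (t, 1)} : Set G)) := by
  have hle : ((zpowers t).prod (⊤ : Subgroup U)).map f ≤ centralizer ({f (t, 1)} : Set G) := by
    rintro _ ⟨⟨s, u⟩, ⟨hs, -⟩, rfl⟩
    rw [mem_centralizer_singleton_iff, ← map_mul, ← map_mul]
    congr 1
    obtain ⟨n, hn⟩ := hs
    have hn' : t ^ n = s := hn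
    refine Prod.ext ?_ ?_
    · change s * t = t * s
      rw [← hn']
      exact (Commute.refl t).zpow_left n
    · change u * 1 = 1 * u
      rw [mul_one, one_mul]
  have h1 := card_dvd_of_le hle
  rw [card_map_of_injective hf, Nat.card_congr (prodEquiv _ _).toEquiv, Nat.card_prod, Nat.card_zpowers, card_top] at h1
  exact h1

/-- **(Z)** : some `x ∈ N` of order `r` has `r * |T| ^ (k - 1) ∣ |C_G(x)|` -/
theorem exists_cent (e : N ≃* (Fin k → T)) (hk : 2 ≤ k) {r : ℕ} (hr : r.Prime) (hT : r ∣ Nat.card T) :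
    ∃ x ∈ N, orderOf x = r ∧ r * Nat.card T ^ (k - 1) ∣ Nat.card (centralizer ({x} : Set G)) := by
  obtain ⟨f, hf, hfN⟩ := exists_hom e (by omega)
  have hfin : Finite T := by
    refine Finite.of_injective (fun t => f (t, 1)) fun a b h => ?_
    exact (Prod.ext_iff.1 (hf h)).1
  have := Fact.mk hr
  obtain ⟨t, ht⟩ := exists_prime_orderOf_dvd_card' r hT
  refine ⟨f (t, 1), hfN _, ?_, ?_⟩
  · rw [orderOf_injective f hf, Prod.orderOf_mk, orderOf_one, Nat.lcm_one_right, ht]
  · have h1 := dvd_of_hom (U := Fin (k - 1) → T) hf (t := t)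
    rw [ht, Nat.card_pi, Finset.prod_const, Finset.card_univ, Fintype.card_fin] at h1
    exact h1

/-- **(Z)**, the consumer form -/
theorem zkill (e : N ≃* (Fin k → T)) (hk : 2 ≤ k) {r : ℕ} (hr : r.Prime) (hT : r ∣ Nat.card T) {c : ℕ}
    (hc : ∀ x : G, orderOf x = r → Nat.card (centralizer ({x} : Set G)) ≤ c) (hlt : c < r * Nat.card T) : False := by
  obtain ⟨x, -, hx, hd⟩ := exists_cent e hk hr hT
  have h1 := Nat.le_of_dvd Nat.card_pos hd
  have h2 := hc x hx
  have hT0 : 0 < Nat.card T := by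
    rcases Nat.eq_zero_or_pos (Nat.card T) with h0 | h0
    · rw [h0] at hlt; omega
    · exact h0
  have h3 : Nat.card T ≤ Nat.card T ^ (k - 1) := Nat.le_self_pow (by omega) _
  have h4 := Nat.mul_le_mul_left r h3
  omega

/-- **(Z)** with all factors: `r * |T| ^ (k - 1)` -/
theorem zkill' (e : N ≃* (Fin k → T)) (hk : 2 ≤ k) {r : ℕ} (hr : r.Prime) (hT : r ∣ Nat.card T)
    (hc : ∀ x : G, orderOf x = r → Nat.card (centralizer ({x} : Set G)) < r * Nat.card T ^ (k - 1)) : False := by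
  obtain ⟨x, -, hx, hd⟩ := exists_cent e hk hr hT
  have h1 := Nat.le_of_dvd Nat.card_pos hd
  have h2 := hc x hx
  omega

omit [Finite G] in
/-- commuting elements in different factors -/
theorem exists_comm (e : N ≃* (Fin k → T)) (hk : 2 ≤ k) [Finite T] {r s : ℕ} (hr : r.Prime) (hs : s.Prime)
    (hrT : r ∣ Nat.card T) (hsT : s ∣ Nat.card T) :
    ∃ x ∈ N, ∃ y ∈ N, orderOf x = r ∧ orderOf y = s ∧ x * y = y * x ∧ ∀ i j : ℕ, x ^ i * y ^ j = 1 → x ^ i = 1 ∧ y ^ j = 1 := by
  obtain ⟨f, hf, hfN⟩ := exists_hom2 e hk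
  have := Fact.mk hr
  have := Fact.mk hs
  obtain ⟨t, ht⟩ := exists_prime_orderOf_dvd_card' r hrT
  obtain ⟨u, hu⟩ := exists_prime_orderOf_dvd_card' s hsT
  refine ⟨f (t, 1), hfN _, f (1, u), hfN _, ?_, ?_, ?_, ?_⟩
  · rw [orderOf_injective f hf, Prod.orderOf_mk, orderOf_one, Nat.lcm_one_right, ht]
  · rw [orderOf_injective f hf, Prod.orderOf_mk, orderOf_one, Nat.lcm_one_left, hu]
  · rw [← map_mul, ← map_mul, Prod.mk_mul_mk, Prod.mk_mul_mk, mul_one, one_mul, one_mul, mul_one]
  · intro i j h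
    rw [← map_pow, ← map_pow, ← map_mul, ← map_one f] at h
    have h1 := hf h
    rw [Prod.pow_mk, Prod.pow_mk, Prod.mk_mul_mk, one_pow, one_pow, mul_one, one_mul, Prod.mk_eq_one] at h1
    refine ⟨?_, ?_⟩
    · rw [← map_pow, Prod.pow_mk, h1.1, one_pow]; exact map_one f
    · rw [← map_pow, Prod.pow_mk, h1.2, one_pow]; exact map_one f

omit [Finite G] in
/-- an element of order `r * s` for different primes -/
theorem exists_order (e : N ≃* (Fin k → T)) (hk : 2 ≤ k) [Finite T] {r s : ℕ} (hr : r.Prime) (hs : s.Prime) (hne : r ≠ s)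
    (hrT : r ∣ Nat.card T) (hsT : s ∣ Nat.card T) : ∃ x ∈ N, orderOf x = r * s := by
  obtain ⟨x, hx, y, hy, h1, h2, h3, -⟩ := exists_comm e hk hr hs hrT hsT
  refine ⟨x * y, mul_mem hx hy, ?_⟩
  have h4 : Commute x y := h3
  rw [h4.orderOf_mul_eq_mul_orderOf_of_coprime (by rw [h1, h2]; exact (Nat.coprime_primes hr hs).2 hne), h1, h2]

omit [Finite G] in
/-- `A × B` in `G` from `A`, `B` in `T` -/
theorem exists_prod (e : N ≃* (Fin k → T)) (hk : 2 ≤ k) {A B : Type*} [Group A] [Group B] {f : A →* T} {g : B →* T}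
    (hf : Function.Injective f) (hg : Function.Injective g) : ∃ h : A × B →* G, Function.Injective h ∧ ∀ x, h x ∈ N := by
  obtain ⟨F, hF, hFN⟩ := exists_hom2 e hk
  exact ⟨F.comp (f.prodMap g), hF.comp (Function.Injective.prodMap hf hg), fun x => hFN _⟩

end Cfsg.Agent.H938.EPK
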