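import Cfsg.Agent.H357.EP.Inv27
import Cfsg.Agent.H147.SzClass
import Cfsg.Agent.H938.EPK.Z

/-!
# `Sz(q) ^ k`, `k ≥ 2`, is not contained in `E₆(q')`, `q'` odd (S5745, CrossK; helper938)

`E = A × A`, `A` elementary abelian of order `8` with all involutions conjugate: the traces on the module of dimension
`27` are `3` or `-5`, so `27 + 7 a + 7 b + 49 c = 64 m` is impossible.
-/

set_option autoImplicit false

namespace Cfsg.Agent.H938.EPK

open Cfsg.Agent.H357.EP Cfsg.Lie

universe u v

theorem card_le_hom {T : Type*} [Group T] (h : InE6 T) {A : Type*} [Group A] [Finite A] (hA : ∀ x : A, x * x = 1)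
    (f : A →* T) (hf : Function.Injective f) : Nat.card A ≤ 64 := by
  have : Finite f.range := Finite.of_equiv _ (MonoidHom.ofInjective hf).toEquiv
  rw [Nat.card_congr (MonoidHom.ofInjective hf).toEquiv]
  refine h.card_le f.range ?_
  rintro _ ⟨x, rfl⟩
  rw [← map_mul, hA, map_one]

/-- the abstract form -/
theorem not_inE6_of {T : Type*} [Group T] {A : Type*} [Group A] [Finite A] (hA : ∀ x : A, x * x = 1)
    (h8 : Nat.card A = 8) (f : A →* T) (hf : Function.Injective f)
    (hc : ∀ a b : A, a ≠ 1 → b ≠ 1 → IsConj (f a) (f b)) : ¬ InE6 (T × T) := by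
  classical
  rintro ⟨F, i1, i2, ho, g, hg⟩
  have := Fintype.ofFinite A
  have hcA : Fintype.card A = 8 := by rw [← Nat.card_eq_fintype_card, h8]
  obtain ⟨β, h1, h2, h3, ⟨m, h4⟩, -⟩ := Cfsg.Agent.H357.EP.beta (E := A × A) ho (fun x => Prod.ext (hA x.1) (hA x.2))
    (g.comp (f.prodMap f)) (hg.comp (Function.Injective.prodMap hf hf))
  obtain ⟨a0, ha0⟩ : ∃ a : A, a ≠ 1 := by
    by_contra hcon
    push Not at hcon
    have : Subsingleton A := ⟨fun a b => by rw [hcon a, hcon b]⟩
    have h5 := Finite.card_le_one_iff_subsingleton.2 this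
    omega
  have conj : ∀ a b c d : A, IsConj (f a) (f c) → IsConj (f b) (f d) →
      β (a, b) = β (c, d) := by
    intro a b c d hac hbd
    refine h3 _ _ ?_
    obtain ⟨u, hu⟩ := isConj_iff.1 hac
    obtain ⟨v, hv⟩ := isConj_iff.1 hbd
    refine isConj_iff.2 ⟨g (u, v), ?_⟩
    change g (u, v) * g (f a, f b) * (g (u, v))⁻¹ = g (f c, f d)
    rw [← map_inv, ← map_mul, ← map_mul]
    congr 1
    exact Prod.ext hu hv
  have hs : ∑ x : A × A, β x = β 1 + 7 * β (a0, 1) + 7 * β (1, a0) + 49 * β (a0, a0) := by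
    have e1 : ∀ a : A, ∑ b : A, β (a, b) = β (a, 1) + 7 * β (a, a0) := by
      intro a
      rw [← Finset.add_sum_erase _ _ (Finset.mem_univ (1 : A))]
      congr 1
      rw [Finset.sum_congr rfl (g := fun _ => β (a, a0)) (fun b hb => conj _ _ _ _ (IsConj.refl _)
        (hc _ _ (Finset.ne_of_mem_erase hb) ha0)), Finset.sum_const, Finset.card_erase_of_mem (Finset.mem_univ _),
        Finset.card_univ, hcA]
      simp
    rw [Fintype.sum_prod_type]
    rw [Finset.sum_congr rfl fun a _ => e1 a]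
    rw [← Finset.add_sum_erase _ _ (Finset.mem_univ (1 : A))]
    have e2 : ∑ a ∈ Finset.univ.erase (1 : A), (β (a, 1) + 7 * β (a, a0)) = 7 * (β (a0, 1) + 7 * β (a0, a0)) := by
      rw [Finset.sum_congr rfl (g := fun _ => β (a0, 1) + 7 * β (a0, a0)) (fun a ha => by
        rw [conj a 1 a0 1 (hc _ _ (Finset.ne_of_mem_erase ha) ha0) (IsConj.refl _),
          conj a a0 a0 a0 (hc _ _ (Finset.ne_of_mem_erase ha) ha0) (IsConj.refl _)]),
        Finset.sum_const, Finset.card_erase_of_mem (Finset.mem_univ _), Finset.card_univ, hcA]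
      simp
    rw [e2]
    have e3 : β (1 : A × A) = β ((1 : A), (1 : A)) := rfl
    rw [e3]
    ring
  have hm : (Fintype.card (A × A) : ℤ) = 64 := by
    rw [Fintype.card_prod, hcA]; norm_num
  rw [hs, h1, hm] at h4
  have k1 := h2 (a0, 1) fun h => ha0 (Prod.ext_iff.1 h).1
  have k2 := h2 (1, a0) fun h => ha0 (Prod.ext_iff.1 h).2
  have k3 := h2 (a0, a0) fun h => ha0 (Prod.ext_iff.1 h).1
  omega

/-- the elementary abelian subgroup of order `q` of `Sz(q)` -/
def zhom {F : Type*} [Field F] {θ : F →+* F} {e : ℕ} (H : LieRecognition.SzMatrix.Good F θ e) :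
    Multiplicative F →* ↥(Lie.Sz F e) where
  toFun b := H.u 0 b.toAdd
  map_one' := H.u_zero
  map_mul' a b := by
    rw [H.u_mul]
    simp

theorem zhom_inj {F : Type*} [Field F] {θ : F →+* F} {e : ℕ} (H : LieRecognition.SzMatrix.Good F θ e) :
    Function.Injective (zhom H) := fun _ _ h => (H.u_inj h).2

/-- `Sz(q) × Sz(q)` is not contained in `E₆(q')`, `q'` odd -/
theorem not_inE6_sz_sq {T : Type*} [Group T] (hT : Lie.IsoSuzuki T) : ¬ InE6 (T × T) := by
  obtain ⟨F, i1, i2, m, hm, hF, ⟨e⟩⟩ := hT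
  have H := LieRecognition.SzMatrix.good hF
  set f : Multiplicative F →* T := e.symm.toMonoidHom.comp (zhom H) with hf
  have hfi : Function.Injective f := e.symm.injective.comp (zhom_inj H)
  have hA : ∀ x : Multiplicative F, x * x = 1 := fun x => Multiplicative.toAdd.injective (H.add_self x.toAdd)
  have hcard : Nat.card (Multiplicative F) = 2 ^ (2 * m + 1) := by
    rw [← hF, ← Nat.card_eq_fintype_card]; rfl
  by_cases h1 : m = 1
  · subst h1
    refine not_inE6_of hA (by rw [hcard]; norm_num) f hfi fun a b ha hb => ?_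
    have key : ∀ a : Multiplicative F, a ≠ 1 → IsConj (f a) (e.symm (H.u 0 1)) := by
      intro a ha
      have h2 := H147.Sz.isConj_invol H (g := zhom H a) (fun h => ha (zhom_inj H (h.trans (map_one _).symm)))
        (by rw [← map_mul, hA, map_one])
      obtain ⟨c, hc⟩ := isConj_iff.1 h2
      refine isConj_iff.2 ⟨e.symm c, ?_⟩
      rw [← hc, map_mul, map_mul, map_inv]
      rfl
    exact (key a ha).trans (key b hb).symm
  · intro h
    have h2 := card_le_hom h (A := Multiplicative F × Multiplicative F) (fun x => Prod.ext (hA x.1) (hA x.2))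
      (f.prodMap f) (Function.Injective.prodMap hfi hfi)
    rw [Nat.card_prod, hcard, ← pow_add] at h2
    have h3 : 2 ^ 10 ≤ 2 ^ (2 * m + 1 + (2 * m + 1)) := Nat.pow_le_pow_right (by norm_num) (by omega)
    omega

/-- `Sz(q) ^ k`, `k ≥ 2`, is not contained in `E₆(q')`, `q'` odd -/
theorem not_inE6_sz_pow {T : Type*} [Group T] (hT : Lie.IsoSuzuki T) {k : ℕ} (hk : 2 ≤ k) : ¬ InE6 (Fin k → T) := by
  intro h
  have h1 : InE6 (⊤ : Subgroup (Fin k → T)) := h.mono (Subgroup.subtype _) Subtype.val_injective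
  obtain ⟨f, hf, -⟩ := exists_hom2 (G := Fin k → T) (N := ⊤) (T := T) (k := k) Subgroup.topEquiv hk
  exact not_inE6_sz_sq hT (h.mono f hf)

end Cfsg.Agent.H938.EPK
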